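/-
Extremely primitive groups of affine type: the point stabilizer `H` acts on the regular normal
subgroup `V` so that the stabilizer of every non-zero vector is a core-free maximal subgroup.
-/
import Cfsg.Agent.H7.ExtPrim

set_option autoImplicit false

namespace Cfsg.Agent.H8

open Subgroup MulAction Cfsg.Agent.H7
open scoped Pointwise

/-- the stabilizers of the non-zero vectors are core-free maximal subgroups -/
structure ExtAff (H V : Type*) [Group H] [AddCommGroup V] [DistribMulAction H V] : Prop where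
  max : ∀ v : V, v ≠ 0 → ∀ K : Subgroup H, stabilizer H v ≤ K → K = stabilizer H v ∨ K = ⊤
  faith : ∀ v : V, v ≠ 0 → ∀ M : Subgroup H, M.Normal → M ≤ stabilizer H v → M = ⊥

variable {H V : Type*} [Group H] [AddCommGroup V] [DistribMulAction H V]

namespace ExtAff

theorem dich (h : ExtAff H V) {v : V} (hv : v ≠ 0) {X : Subgroup H}
    (hX : ∀ g : H, g • v = v → ∀ x ∈ X, g * x * g⁻¹ ∈ X) :
    X ≤ stabilizer H v ∨ ∀ g : H, ∃ x ∈ X, ∃ k : H, k • v = v ∧ g = x * k := by
  have hn : stabilizer H v ≤ normalizer (X : Set H) := by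
    intro g hg
    rw [mem_normalizer_iff]
    intro x
    refine ⟨hX g hg x, fun hx => ?_⟩
    have := hX g⁻¹ ((stabilizer H v).inv_mem hg) _ hx
    simpa [mul_assoc] using this
  rcases h.max v hv (X ⊔ stabilizer H v) le_sup_right with e | e
  · exact Or.inl (e ▸ le_sup_left)
  · right
    intro g
    have hg : g ∈ ((X ⊔ stabilizer H v : Subgroup H) : Set H) := by rw [e]; trivial
    rw [coe_mul_of_right_le_normalizer_left _ _ hn] at hg
    obtain ⟨x, hx, k, hk, rfl⟩ := hg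
    exact ⟨x, hx, k, hk, rfl⟩

theorem trans_of_normal (h : ExtAff H V) {v : V} (hv : v ≠ 0) {M : Subgroup H} (hM : M.Normal)
    (hb : M ≠ ⊥) (g : H) : ∃ x ∈ M, ∃ k : H, k • v = v ∧ g = x * k :=
  ((h.dich hv (fun g _ x hx => hM.conj_mem x hx g)).resolve_left
    fun hle => hb (h.faith v hv M hM hle)) g

/-- a normal subgroup centralized by a non-trivial normal subgroup is semiregular -/
theorem semireg (h : ExtAff H V) {v : V} (hv : v ≠ 0) {M C : Subgroup H} (hM : M.Normal)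
    (hC : C.Normal) (hb : C ≠ ⊥) (hc : ∀ m ∈ M, ∀ c ∈ C, m * c = c * m) :
    ∀ m ∈ M, m • v = v → m = 1 := by
  have : M ⊓ stabilizer H v = ⊥ := by
    refine h.faith v hv _ ⟨fun m hm g => ?_⟩ inf_le_right
    obtain ⟨c, hc', k, hk, rfl⟩ := h.trans_of_normal hv hC hb g
    have h1 : k * m * k⁻¹ ∈ M := hM.conj_mem m hm.1 k
    have h2 : c * k * m * (c * k)⁻¹ = k * m * k⁻¹ := by
      have := hc _ h1 c hc'
      calc c * k * m * (c * k)⁻¹ = c * (k * m * k⁻¹) * c⁻¹ := by group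
        _ = k * m * k⁻¹ := by rw [← this]; group
    rw [h2]
    exact ⟨h1, (stabilizer H v).mul_mem ((stabilizer H v).mul_mem hk hm.2)
      ((stabilizer H v).inv_mem hk)⟩
  intro m hm hmv
  exact (this ▸ (⟨hm, hmv⟩ : m ∈ M ⊓ stabilizer H v) : m ∈ (⊥ : Subgroup H))

/-- odd characteristic: `H` has no involution unless it has order two -/
theorem solvable_of_odd (h : ExtAff H V) [Nontrivial V] (ho : ∀ v : V, v + v = 0 → v = 0)
    {t : H} (ht : t ≠ 1) (ht2 : t * t = 1) : Group.IsSolvable H := by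
  obtain ⟨v, hv⟩ : ∃ v : V, t • v ≠ v := by
    by_contra hc
    push Not at hc
    obtain ⟨v, hv⟩ := exists_ne (0 : V)
    have := h.faith v hv (toPermHom H V).ker inferInstance (fun g hg => by
      have := congrArg (fun e : Equiv.Perm V => e v) (MonoidHom.mem_ker.1 hg)
      simpa using this)
    refine ht (this ▸ (?_ : t ∈ (toPermHom H V).ker) : t ∈ (⊥ : Subgroup H))
    rw [MonoidHom.mem_ker]
    ext w
    simpa using hc w
  set x := v - t • v with hx
  have hx0 : x ≠ 0 := fun e => hv (sub_eq_zero.1 e).symm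
  have htx : t • x = -x := by rw [hx, smul_sub, ← mul_smul, ht2, one_smul, neg_sub]
  have hne : -x ≠ x := fun e => hx0 (ho x (by nth_rewrite 1 [← e]; exact neg_add_cancel x))
  let K : Subgroup H :=
    { carrier := {g | g • x = x ∨ g • x = -x}
      one_mem' := Or.inl (one_smul _ _)
      mul_mem' := by
        rintro a b (ha | ha) (hb | hb) <;> simp [mul_smul, ha, hb]
      inv_mem' := by
        rintro a (ha | ha)
        · exact Or.inl (by rw [inv_smul_eq_iff, ha])
        · exact Or.inr (by rw [inv_smul_eq_iff, smul_neg, ha, neg_neg]) }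
  have hK : K = ⊤ := by
    refine (h.max x hx0 K (fun g hg => Or.inl hg)).resolve_left fun e => hne ?_
    have : t ∈ K := Or.inr htx
    rw [e] at this
    rw [← htx]; exact this
  have hall : ∀ g : H, g • x = x ∨ g • x = -x := fun g => (hK ▸ mem_top g : g ∈ K)
  have hb : stabilizer H x = ⊥ := by
    refine h.faith x hx0 _ ⟨fun m hm g => ?_⟩ le_rfl
    rw [mem_stabilizer_iff] at hm ⊢
    rw [mul_smul, mul_smul]
    rcases hall g⁻¹ with e | e
    · have e' : m • g⁻¹ • x = g⁻¹ • x := by rw [e, hm]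
      rw [e', smul_inv_smul]
    · have e' : m • g⁻¹ • x = g⁻¹ • x := by rw [e, smul_neg, hm]
      rw [e', smul_inv_smul]
  refine Group.isSolvable_of_comm fun a b => ?_
  have : (b * a)⁻¹ * (a * b) ∈ stabilizer H x := by
    rw [mem_stabilizer_iff, mul_smul, inv_smul_eq_iff]
    rcases hall a with ha | ha <;> rcases hall b with hb | hb <;> simp [mul_smul, ha, hb]
  rw [hb, mem_bot, inv_mul_eq_one] at this
  exact this.symm

theorem exists_fixed (h2 : ∀ v : V, v + v = 0) [Nontrivial V] {t : H} (ht2 : t * t = 1) :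
    ∃ v : V, v ≠ 0 ∧ t • v = v := by
  obtain ⟨v, hv⟩ := exists_ne (0 : V)
  by_cases e : t • v = v
  · exact ⟨v, hv, e⟩
  · refine ⟨v + t • v, fun e' => e ?_, by rw [smul_add, ← mul_smul, ht2, one_smul, add_comm]⟩
    exact add_left_cancel (e'.trans (h2 v).symm)

/-- an abelian normal subgroup that is cyclic forces solvability -/
theorem solvable_of_cyclic [Finite H] (h : ExtAff H V) [Nontrivial V] {M : Subgroup H} (hM : M.Normal)
    (hb : M ≠ ⊥) (hc : IsCyclic M) : Group.IsSolvable H := by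
  obtain ⟨v, hv⟩ := exists_ne (0 : V)
  have hcomm : ∀ a ∈ M, ∀ b ∈ M, a * b = b * a := fun a ha b hb =>
    congrArg Subtype.val (IsCyclic.isMulCommutative.is_comm.comm (⟨a, ha⟩ : M) ⟨b, hb⟩)
  have hC : centralizer (M : Set H) ≤ M := by
    intro c hc
    obtain ⟨x, hx, k, hk, rfl⟩ := h.trans_of_normal hv hM hb c
    have hkC : k ∈ centralizer (M : Set H) := by
      have : x ∈ centralizer (M : Set H) := fun m hm => hcomm m hm x hx
      simpa using (centralizer (M : Set H)).mul_mem ((centralizer (M : Set H)).inv_mem this) hc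
    rw [h.semireg hv (M := centralizer (M : Set H)) inferInstance hM hb
      (fun m hm c hc => (hm c hc).symm) k hkC hk, mul_one]
    exact hx
  have : Group.IsSolvable (MulAut M) := Group.isSolvable_of_comm fun a b =>
    (IsCyclic.mulAutMulEquiv M).injective (by rw [map_mul, map_mul, mul_comm])
  have : Group.IsSolvable M := Group.isSolvable_of_comm fun a b =>
    IsCyclic.isMulCommutative.is_comm.comm a b
  refine Group.isSolvable_of_ker_le_range M.subtype (MulAut.conjNormal (H := M)) ?_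
  intro g hg
  rw [range_subtype]
  refine hC fun m hm => ?_
  have := congrArg (fun e : MulAut M => ((e ⟨m, hm⟩ : M) : H)) (MonoidHom.mem_ker.1 hg)
  simp only [MulAut.conjNormal_apply, MulAut.one_apply] at this
  rw [mul_inv_eq_iff_eq_mul] at this
  exact this.symm

section Comp

variable [Finite H] {M : Subgroup H}

omit [Finite H] in
theorem comm_of_ne {K L : Subgroup H} (hK : CompIn K M) (hL : CompIn L M) (hne : K ≠ L) :
    ∀ a ∈ K, ∀ b ∈ L, a * b = b * a := fun _ ha _ hb =>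
  (commute_of_commutator_eq_bot ((hK.eq_or_commutator hL).resolve_left hne) ha hb).eq

theorem conj_mem_comp (hM : IsMinNormal M) (hc : ⁅M, M⁆ ≠ ⊥) {K : Subgroup H} (hK : CompIn K M)
    {m : H} (hm : m ∈ M) {a : H} (ha : a ∈ K) : m * a * m⁻¹ ∈ K :=
  hK.normalIn_layerIn.conj_mem ha (by rwa [hM.layerIn_eq hc])

omit [Finite H] in
theorem comp_conj (hM : IsMinNormal M) {K : Subgroup H} (hK : CompIn K M) (g : H) :
    CompIn (MulAut.conj g • K) M := by
  have := hK.smul g
  rwa [hM.smul g] at this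

/-- the stabilizer of a non-zero vector permutes the components transitively -/
theorem comp_trans (h : ExtAff H V) (hM : IsMinNormal M) (hc : ⁅M, M⁆ ≠ ⊥) {v : V} (hv : v ≠ 0)
    {K L : Subgroup H} (hK : CompIn K M) (hL : CompIn L M) :
    ∃ k : H, k • v = v ∧ ∀ a, a ∈ K ↔ k * a * k⁻¹ ∈ L := by
  obtain ⟨g, hg⟩ := hM.exists_conj_comp hK hL
  obtain ⟨x, hx, k, hk, rfl⟩ := h.trans_of_normal hv hM.normal hM.ne_bot g
  refine ⟨k, hk, fun a => ?_⟩
  have h1 : k * a * k⁻¹ ∈ L ↔ x * (k * a * k⁻¹) * x⁻¹ ∈ L := by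
    refine ⟨conj_mem_comp hM hc hL hx, fun h' => ?_⟩
    have := conj_mem_comp hM hc hL (M.inv_mem hx) h'
    simpa [mul_assoc] using this
  rw [h1, ← hg, mem_conj_smul]
  simp [mul_assoc]

theorem card_comp_eq (h : ExtAff H V) (hM : IsMinNormal M) (hc : ⁅M, M⁆ ≠ ⊥) {v : V} (hv : v ≠ 0)
    {K L : Subgroup H} (hK : CompIn K M) (hL : CompIn L M) :
    Nat.card (K ⊓ stabilizer H v : Subgroup H) = Nat.card (L ⊓ stabilizer H v : Subgroup H) := by
  obtain ⟨k, hk, hkl⟩ := h.comp_trans hM hc hv hK hL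
  have hk' : k⁻¹ • v = v := by rw [inv_smul_eq_iff, hk]
  refine Nat.card_congr
    { toFun := fun a => ⟨k * a * k⁻¹, (hkl a).1 a.2.1, ?_⟩
      invFun := fun a => ⟨k⁻¹ * a * k, (hkl _).2 (by simpa [mul_assoc] using a.2.1), ?_⟩
      left_inv := fun a => Subtype.ext (by simp [mul_assoc])
      right_inv := fun a => Subtype.ext (by simp [mul_assoc]) }
  · have : (a : H) • v = v := a.2.2
    show _ • v = v
    rw [mul_smul, mul_smul, hk', this, hk]
  · have : (a : H) • v = v := a.2.2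
    show _ • v = v
    rw [mul_smul, mul_smul, hk, this, hk']

theorem not_comp_le (h : ExtAff H V) (hM : IsMinNormal M) (hc : ⁅M, M⁆ ≠ ⊥) {v : V} (hv : v ≠ 0)
    {K : Subgroup H} (hK : CompIn K M) : ¬ K ≤ stabilizer H v := by
  intro hle
  refine hM.ne_bot (h.faith v hv M hM.normal ?_)
  rw [← hM.layerIn_eq hc, layerIn_le_iff]
  intro L hL a ha
  obtain ⟨k, hk, hkl⟩ := h.comp_trans hM hc hv hL hK
  have : (k * a * k⁻¹) • v = v := hle ((hkl a).1 ha)
  have hk' : k⁻¹ • v = v := by rw [inv_smul_eq_iff, hk]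
  rw [mul_smul, mul_smul, hk', smul_eq_iff_eq_inv_smul, hk'] at this
  exact this

/-- product type: the stabilizer in a component is self-normalizing -/
theorem selfNorm (h : ExtAff H V) (hM : IsMinNormal M) (hc : ⁅M, M⁆ ≠ ⊥) {v : V} (hv : v ≠ 0)
    {T : Subgroup H} (hT : CompIn T M) (hR : T ⊓ stabilizer H v ≠ ⊥) {t : H} (ht : t ∈ T)
    (hn : ∀ r ∈ T, r • v = v → (t * r * t⁻¹) • v = v) : t • v = v := by
  let X : Subgroup H :=
    { carrier := {m | m ∈ M ∧ ∀ K, CompIn K M → ∀ r ∈ K, (r • v = v ↔ (m * r * m⁻¹) • v = v)}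
      one_mem' := ⟨M.one_mem, fun K _ r _ => by simp⟩
      mul_mem' := by
        rintro a b ⟨ha, ha'⟩ ⟨hb, hb'⟩
        refine ⟨M.mul_mem ha hb, fun K hK r hr => ?_⟩
        rw [hb' K hK r hr, ha' K hK _ (conj_mem_comp hM hc hK hb hr)]
        simp [mul_assoc]
      inv_mem' := by
        rintro a ⟨ha, ha'⟩
        refine ⟨M.inv_mem ha, fun K hK r hr => ?_⟩
        rw [ha' K hK _ (conj_mem_comp hM hc hK (M.inv_mem ha) hr)]
        simp [mul_assoc] }
  have hst : ∀ k : H, k • v = v → ∀ r : H, (r • v = v ↔ (k * r * k⁻¹) • v = v) := by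
    intro k hk r
    have hk' : k⁻¹ • v = v := by rw [inv_smul_eq_iff, hk]
    rw [mul_smul, mul_smul, hk', smul_eq_iff_eq_inv_smul k, hk']
  rcases h.dich hv (X := X) (by
    rintro g hg x ⟨hx, hx'⟩
    refine ⟨hM.normal.conj_mem x hx g, fun K hK r hr => ?_⟩
    have hg' : g⁻¹ • v = v := by rw [inv_smul_eq_iff, hg]
    have h1 := hx' _ (comp_conj hM hK g⁻¹) (g⁻¹ * r * g⁻¹⁻¹) (by
      rw [mem_conj_smul]; simpa [mul_assoc] using hr)
    rw [hst g⁻¹ hg' r, h1, hst g hg]
    simp [mul_assoc]) with hle | hall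
  · refine hle ⟨hT.le ht, fun K hK r hr => ?_⟩
    by_cases e : K = T
    · subst e
      refine ⟨hn r hr, fun h' => ?_⟩
      -- finiteness: conjugation by `t` is an injective self-map of `K ⊓ H_v`
      let f : (K ⊓ stabilizer H v : Subgroup H) → (K ⊓ stabilizer H v : Subgroup H) := fun a =>
        ⟨t * a * t⁻¹, K.mul_mem (K.mul_mem ht a.2.1) (K.inv_mem ht), hn a a.2.1 a.2.2⟩
      have hf : Function.Injective f := fun a b e => Subtype.ext (by
        have := congrArg Subtype.val e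
        simpa [f] using this)
      obtain ⟨a, ha⟩ := Finite.injective_iff_surjective.1 hf
        ⟨t * r * t⁻¹, K.mul_mem (K.mul_mem ht hr) (K.inv_mem ht), h'⟩
      have : (a : H) = r := by simpa [f] using congrArg Subtype.val ha
      rw [← this]; exact a.2.2
    · rw [← comm_of_ne hK hT e r hr t ht, mul_inv_cancel_right]
  · exfalso
    have hN : NormalIn (T ⊓ stabilizer H v) T := by
      refine NormalIn.mk' inf_le_left fun b hb a ha => ⟨T.mul_mem (T.mul_mem hb ha.1)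
        (T.inv_mem hb), ?_⟩
      obtain ⟨x, ⟨hx, hx'⟩, k, hk, rfl⟩ := hall b
      have hkM : k ∈ M := by simpa using M.mul_mem (M.inv_mem hx) (hT.le hb)
      have := (hx' T hT _ (conj_mem_comp hM hc hT hkM ha.1)).1 ((hst k hk a).1 ha.2)
      show _ • v = v
      simpa [mul_assoc] using this
    rcases hT.eq_bot_or_eq (hM.fittingIn_eq_bot hc) hN with e | e
    · exact hR e
    · exact h.not_comp_le hM hc hv hT (inf_eq_left.1 e)

/-- product type: the components of an element of the stabilizer lie in the stabilizer -/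
theorem proj_mem (h : ExtAff H V) (hM : IsMinNormal M) (hc : ⁅M, M⁆ ≠ ⊥) {v : V} (hv : v ≠ 0)
    {T : Subgroup H} (hT : CompIn T M) (hR : T ⊓ stabilizer H v ≠ ⊥) {t c : H} (ht : t ∈ T)
    (hcT : ∀ a ∈ T, a * c = c * a) (htc : (t * c) • v = v) : t • v = v := by
  refine h.selfNorm hM hc hv hT hR ht fun r hr hrv => ?_
  have e : t * r * t⁻¹ = (t * c) * r * (t * c)⁻¹ := by
    rw [mul_assoc t c r, ← hcT r hr]; group
  have h' : (t * c)⁻¹ • v = v := by rw [inv_smul_eq_iff, htc]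
  rw [e, mul_smul, mul_smul, h', hrv, htc]

theorem exists_invol_not_mem (hFT : ∀ K : Subgroup H, Odd (Nat.card K) → Group.IsSolvable K)
    (hM : IsMinNormal M) (hc : ⁅M, M⁆ ≠ ⊥) {T : Subgroup H} (hT : CompIn T M) {R : Subgroup H}
    (hR : ¬ T ≤ R) : ∃ g ∈ T, g * g = 1 ∧ g ∉ R := by
  by_contra hn
  push Not at hn
  have h2 : 2 ∣ Nat.card T := by
    by_contra h2
    exact hT.not_isSolvable (hFT T (Nat.odd_iff.2 (by omega)))
  obtain ⟨t, ht⟩ := exists_prime_orderOf_dvd_card' (G := T) 2 h2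
  let I : Subgroup H := closure {g | g ∈ T ∧ g * g = 1}
  have hI : I ≤ T := (closure_le T).2 fun g hg => hg.1
  have hN : NormalIn I T := by
    refine NormalIn.mk' hI fun b hb a ha => ?_
    induction ha using closure_induction with
    | mem x hx =>
      refine subset_closure ⟨T.mul_mem (T.mul_mem hb hx.1) (T.inv_mem hb), ?_⟩
      rw [show b * x * b⁻¹ * (b * x * b⁻¹) = b * (x * x) * b⁻¹ by group, hx.2]; group
    | one => simp
    | mul x y _ _ hx hy =>
      rw [show b * (x * y) * b⁻¹ = (b * x * b⁻¹) * (b * y * b⁻¹) by group]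
      exact I.mul_mem hx hy
    | inv x _ hx =>
      rw [show b * x⁻¹ * b⁻¹ = (b * x * b⁻¹)⁻¹ by group]
      exact I.inv_mem hx
  rcases hT.eq_bot_or_eq (hM.fittingIn_eq_bot hc) hN with e | e
  · have : (t : H) ∈ I := subset_closure ⟨t.2, by
      have := pow_orderOf_eq_one t
      rw [ht, sq] at this
      exact congrArg Subtype.val this⟩
    rw [e, mem_bot] at this
    have : t = 1 := Subtype.ext this
    rw [this, orderOf_one] at ht
    exact absurd ht (by norm_num)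
  · exact hR (e ▸ (closure_le R).2 fun g hg => hn g hg.1 hg.2)

theorem card_comp_smul (hM : IsMinNormal M) (hc : ⁅M, M⁆ ≠ ⊥) (v : V)
    {K : Subgroup H} (hK : CompIn K M) {m : H} (hm : m ∈ M) :
    Nat.card (K ⊓ stabilizer H (m • v) : Subgroup H) =
      Nat.card (K ⊓ stabilizer H v : Subgroup H) := by
  refine Nat.card_congr
    { toFun := fun a => ⟨m⁻¹ * a * m⁻¹⁻¹, conj_mem_comp hM hc hK (M.inv_mem hm) a.2.1, ?_⟩
      invFun := fun a => ⟨m * a * m⁻¹, conj_mem_comp hM hc hK hm a.2.1, ?_⟩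
      left_inv := fun a => Subtype.ext (by simp [mul_assoc])
      right_inv := fun a => Subtype.ext (by simp [mul_assoc]) }
  · have : (a : H) • m • v = m • v := a.2.2
    show _ • v = v
    rw [mul_smul, mul_smul, inv_inv, this, inv_smul_smul]
  · have : (a : H) • v = v := a.2.2
    show _ • m • v = m • v
    rw [mul_smul, mul_smul, inv_smul_smul, this]

theorem key (h : ExtAff H V) (hM : IsMinNormal M) (hc : ⁅M, M⁆ ≠ ⊥) {K : Subgroup H}
    (hK : CompIn K M) {x y : V} (hy : y ≠ 0) (h1 : K ⊓ stabilizer H y ≠ ⊥)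
    (hle : Nat.card (K ⊓ stabilizer H x : Subgroup H) ≤ Nat.card (K ⊓ stabilizer H y : Subgroup H))
    {g : H} (hg : g ∈ K) (ha : ∀ r ∈ K, r • y = y → r • x = x)
    (hb : ∀ r ∈ K, r • y = y → (g * r * g⁻¹) • x = x) : g • y = y := by
  have e : K ⊓ stabilizer H y = K ⊓ stabilizer H x :=
    Subgroup.eq_of_le_of_card_ge (fun r hr => ⟨hr.1, ha r hr.1 hr.2⟩) hle
  refine h.selfNorm hM hc hy hK h1 hg fun r hr hry => ?_
  have : g * r * g⁻¹ ∈ K ⊓ stabilizer H x :=
    ⟨K.mul_mem (K.mul_mem hg hr) (K.inv_mem hg), hb r hr hry⟩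
  rw [← e] at this
  exact this.2

/-- a vector of diagonal type: the stabilizer projects onto the component -/
theorem exists_diag (h : ExtAff H V) (hM : IsMinNormal M) (hc : ⁅M, M⁆ ≠ ⊥) {w : V} (hw : w ≠ 0)
    {T : Subgroup H} (hT : CompIn T M) {g c : H} (hg : g ∈ T) (hcM : c ∈ M)
    (hcT : ∀ a ∈ T, a * c = c * a) (hgc : (g * c) • w = w) (hgw : g • w ≠ w) {t : H} (ht : t ∈ T) :
    ∃ d ∈ M, (∀ a ∈ T, a * d = d * a) ∧ (t * d) • w = w := by
  let Y : Subgroup H :=
    { carrier := {m | m ∈ M ∧ ∀ K, CompIn K M → ∃ n ∈ M, n • w = w ∧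
        ∀ a ∈ K, m * a * m⁻¹ = n * a * n⁻¹}
      one_mem' := ⟨M.one_mem, fun K _ => ⟨1, M.one_mem, one_smul _ _, fun _ _ => rfl⟩⟩
      mul_mem' := by
        rintro a b ⟨ha, ha'⟩ ⟨hb, hb'⟩
        refine ⟨M.mul_mem ha hb, fun K hK => ?_⟩
        obtain ⟨n, hn, hn1, hn2⟩ := ha' K hK
        obtain ⟨n', hn', hn1', hn2'⟩ := hb' K hK
        refine ⟨n * n', M.mul_mem hn hn', by rw [mul_smul, hn1', hn1], fun x hx => ?_⟩
        calc a * b * x * (a * b)⁻¹ = a * (b * x * b⁻¹) * a⁻¹ := by group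
          _ = n * (n' * x * n'⁻¹) * n⁻¹ := by
            rw [hn2 _ (conj_mem_comp hM hc hK hb hx), hn2' x hx]
          _ = _ := by group
      inv_mem' := by
        rintro a ⟨ha, ha'⟩
        refine ⟨M.inv_mem ha, fun K hK => ?_⟩
        obtain ⟨n, hn, hn1, hn2⟩ := ha' K hK
        refine ⟨n⁻¹, M.inv_mem hn, by rw [inv_smul_eq_iff, hn1], fun x hx => ?_⟩
        have := hn2 _ (conj_mem_comp hM hc hK (M.inv_mem ha) hx)
        calc a⁻¹ * x * a⁻¹⁻¹ = n⁻¹ * (n * (a⁻¹ * x * a⁻¹⁻¹) * n⁻¹) * n⁻¹⁻¹ := by group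
          _ = n⁻¹ * x * n⁻¹⁻¹ := by rw [← this]; group }
  rcases h.dich hw (X := Y) (by
    rintro k hk x ⟨hx, hx'⟩
    refine ⟨hM.normal.conj_mem x hx k, fun K hK => ?_⟩
    have hk' : k⁻¹ • w = w := by rw [inv_smul_eq_iff, hk]
    obtain ⟨n, hn, hn1, hn2⟩ := hx' _ (comp_conj hM hK k⁻¹)
    refine ⟨k * n * k⁻¹, hM.normal.conj_mem n hn k, by rw [mul_smul, mul_smul, hk', hn1, hk],
      fun a ha => ?_⟩
    have := hn2 (k⁻¹ * a * k⁻¹⁻¹) (by rw [mem_conj_smul]; simpa [mul_assoc] using ha)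
    calc k * x * k⁻¹ * a * (k * x * k⁻¹)⁻¹ = k * (x * (k⁻¹ * a * k⁻¹⁻¹) * x⁻¹) * k⁻¹ := by group
      _ = _ := by rw [this]; group) with hle | hall
  · exfalso
    refine hgw (hle ⟨hT.le hg, fun K hK => ?_⟩)
    by_cases e : K = T
    · subst e
      refine ⟨g * c, M.mul_mem (hK.le hg) hcM, hgc, fun a ha => ?_⟩
      rw [mul_assoc g c a, ← hcT a ha]; group
    · refine ⟨1, M.one_mem, one_smul _ _, fun a ha => ?_⟩
      rw [← comm_of_ne hK hT e a ha g hg]; group
  · obtain ⟨x, ⟨hx, hx'⟩, k, hk, rfl⟩ := hall t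
    have hkM : k ∈ M := by simpa using M.mul_mem (M.inv_mem hx) (hT.le ht)
    obtain ⟨n, hn, hn1, hn2⟩ := hx' T hT
    refine ⟨(x * k)⁻¹ * (n * k), M.mul_mem (M.inv_mem (hT.le ht)) (M.mul_mem hn hkM),
      fun a ha => ?_, by rw [mul_inv_cancel_left, mul_smul, hk, hn1]⟩
    have := hn2 _ (conj_mem_comp hM hc hT hkM ha)
    calc a * ((x * k)⁻¹ * (n * k)) = (x * k)⁻¹ * (x * (k * a * k⁻¹) * x⁻¹) * (n * k) := by group
      _ = _ := by rw [this]; group

/-- a non-abelian simple group has no self-normalizing abelian `2`-subgroup -/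
theorem false_of_selfNorm {T : Subgroup H} [IsSimpleGroup T] (hnc : ¬ IsMulCommutative T)
    {R : Subgroup H} (hRT : R ≤ T) (hR : R ≠ ⊥) (h2 : ∀ r ∈ R, r * r = 1)
    (hn : ∀ t ∈ T, (∀ r ∈ R, t * r * t⁻¹ ∈ R) → t ∈ R) : False := by
  have : Fact (Nat.Prime 2) := ⟨Nat.prime_two⟩
  have hp : IsPGroup 2 (R.subgroupOf T) := fun r => ⟨1, by
    rw [pow_one, sq]; exact Subtype.ext (Subtype.ext (h2 _ r.2))⟩
  have hN : normalizer ((R.subgroupOf T : Subgroup T) : Set T) ≤ R.subgroupOf T := by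
    intro t ht
    refine hn t t.2 fun r hr => ?_
    exact (mem_normalizer_iff.1 ht ⟨r, hRT hr⟩).1 hr
  obtain ⟨P, hP⟩ := hp.exists_le_sylow
  have e : R.subgroupOf T = (P : Subgroup T) := by
    by_contra hne
    obtain ⟨x, -, hx, hxn⟩ := exists_mem_normalizer_of_lt (P.isPGroup'.isNilpotent)
      (lt_of_le_of_ne hP hne)
    exact hx (hN hxn)
  refine not_normalizer_le_centralizer hnc P ?_ ?_
  · rw [← e]
    intro hb
    refine hR (eq_bot_iff.2 fun r hr => ?_)
    have : (⟨r, hRT hr⟩ : T) ∈ R.subgroupOf T := hr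
    rw [hb, mem_bot] at this
    exact congrArg Subtype.val this
  · rw [← e]
    intro t ht a ha
    have h1 : (t : H) ∈ R := hN ht
    have h3 : (a : H) ∈ R := ha
    refine Subtype.ext ?_
    have i1 : (t : H)⁻¹ = t := inv_eq_of_mul_eq_one_right (h2 _ h1)
    have i2 : (a : H)⁻¹ = a := inv_eq_of_mul_eq_one_right (h2 _ h3)
    have i3 : ((a : H) * t)⁻¹ = a * t := inv_eq_of_mul_eq_one_right (h2 _ (R.mul_mem h3 h1))
    rw [mul_inv_rev, i1, i2] at i3
    exact i3.symm

theorem comp_unique (h : ExtAff H V) [Nontrivial V] (h2 : ∀ v : V, v + v = 0)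
    (hFT : ∀ K : Subgroup H, Odd (Nat.card K) → Group.IsSolvable K)
    (hM : IsMinNormal M) (hc : ⁅M, M⁆ ≠ ⊥) {T₁ T₂ : Subgroup H} (h1 : CompIn T₁ M)
    (h2' : CompIn T₂ M) : T₁ = T₂ := by
  by_contra hne
  have hcomm := comm_of_ne h1 h2' hne
  have eq_of : ∀ a b : V, a + b = 0 → a = b := fun a b e =>
    add_right_cancel (e.trans (h2 b).symm)
  -- a vector with largest stabilizer in a component
  obtain ⟨v, hv, hvmax⟩ : ∃ v : V, v ≠ 0 ∧ ∀ x : V, x ≠ 0 →
      Nat.card (T₁ ⊓ stabilizer H x : Subgroup H) ≤ Nat.card (T₁ ⊓ stabilizer H v : Subgroup H) := by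
    have hb : ∀ x : {x : V // x ≠ 0}, Nat.card (T₁ ⊓ stabilizer H x.1 : Subgroup H) ≤
      Nat.card H := fun x => card_le_card_group _
    obtain ⟨v0, hv0⟩ := exists_ne (0 : V)
    have : Nonempty {x : V // x ≠ 0} := ⟨⟨v0, hv0⟩⟩
    have hbdd : BddAbove (Set.range fun x : {x : V // x ≠ 0} =>
      Nat.card (T₁ ⊓ stabilizer H x.1 : Subgroup H)) := ⟨Nat.card H, by
        rintro _ ⟨x, rfl⟩; exact hb x⟩
    obtain ⟨v, hv⟩ := Nat.sSup_mem (Set.range_nonempty _) hbdd
    exact ⟨v.1, v.2, fun x hx => by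
      have := le_csSup hbdd ⟨⟨x, hx⟩, rfl⟩
      rw [← hv] at this
      exact this⟩
  have hmax : ∀ K L, CompIn K M → CompIn L M → ∀ x : V, x ≠ 0 →
      Nat.card (K ⊓ stabilizer H x : Subgroup H) ≤ Nat.card (L ⊓ stabilizer H v : Subgroup H) := by
    intro K L hK hL x hx
    rw [h.card_comp_eq hM hc hx hK h1, h.card_comp_eq hM hc hv hL h1]
    exact hvmax x hx
  have hRne : ∀ L, CompIn L M → L ⊓ stabilizer H v ≠ ⊥ := by
    intro L hL
    obtain ⟨t, ht, ht2, ht1⟩ := exists_invol_not_mem hFT hM hc h1 (R := ⊥)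
      (fun e => h1.ne_bot (eq_bot_iff.2 e))
    obtain ⟨x, hx, htx⟩ := exists_fixed h2 ht2
    have : T₁ ⊓ stabilizer H x ≠ ⊥ := fun e => ht1 (e ▸ (⟨ht, htx⟩ : t ∈ T₁ ⊓ stabilizer H x))
    rw [← one_lt_card_iff_ne_bot] at this ⊢
    exact lt_of_lt_of_le this (hmax _ _ h1 hL x hx)
  obtain ⟨g₁, hg₁, hg₁2, hg₁v⟩ := exists_invol_not_mem hFT hM hc h1 (h.not_comp_le hM hc hv h1)
  obtain ⟨g₂, hg₂, hg₂2, hg₂v⟩ := exists_invol_not_mem hFT hM hc h2' (h.not_comp_le hM hc hv h2')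
  rw [mem_stabilizer_iff] at hg₁v hg₂v
  have hg₂T : ∀ a ∈ T₁, a * g₂ = g₂ * a := fun a ha => hcomm a ha g₂ hg₂
  set u := (g₁ * g₂) • v with hu
  have hu0 : u ≠ 0 := by rw [hu]; exact (smul_ne_zero_iff_ne _).2 hv
  have hw : v + u ≠ 0 := fun e =>
    hg₁v (h.proj_mem hM hc hv h1 (hRne _ h1) hg₁ hg₂T (eq_of _ _ e).symm)
  have hgw : (g₁ * g₂) • (v + u) = v + u := by
    have : g₁ * g₂ * (g₁ * g₂) = 1 := by
      calc g₁ * g₂ * (g₁ * g₂) = g₁ * (g₂ * g₁) * g₂ := by group
        _ = (g₁ * g₁) * (g₂ * g₂) := by rw [← hg₂T g₁ hg₁]; group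
        _ = 1 := by rw [hg₁2, hg₂2, one_mul]
    rw [smul_add, hu, ← mul_smul, this, one_smul, add_comm]
  -- elements of `T₁` fixing `w = v + u` fix `v`
  have c1 : ∀ r ∈ T₁, r • (v + u) = v + u → r • v = v := by
    intro r hr hrw
    by_contra hrv
    have hx : v + r • v ≠ 0 := fun e => hrv (eq_of _ _ e).symm
    have e1 : v + r • v = g₂ • (g₁ • v + r • g₁ • v) := by
      have e2 : g₂ • g₁ • v = u := by rw [hu, ← mul_smul, hg₂T g₁ hg₁]
      have e3 : g₂ • r • g₁ • v = r • u := by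
        rw [← e2, ← mul_smul g₂ r, ← hg₂T r hr, mul_smul]
      rw [smul_add, e2, e3]
      rw [smul_add] at hrw
      refine eq_of _ _ ?_
      calc v + r • v + (u + r • u) = (v + u) + (r • v + r • u) := by abel
        _ = 0 := by rw [hrw, h2]
    refine hg₂v (h.key hM hc h2' hv (hRne _ h2') (hmax _ _ h2' h2' _ hx) hg₂ ?_ ?_)
    · intro s hs hsv
      rw [smul_add, hsv, ← mul_smul, ← hcomm r hr s hs, mul_smul, hsv]
    · intro s hs hsv
      have e4 : s • g₁ • v = g₁ • v := by rw [← mul_smul, ← hcomm g₁ hg₁ s hs, mul_smul, hsv]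
      rw [e1, mul_smul, mul_smul, inv_smul_smul, smul_add s, e4, ← mul_smul s r,
        ← hcomm r hr s hs, mul_smul, e4]
  have hg₁w : g₁ • (v + u) ≠ v + u := fun e => hg₁v (c1 g₁ hg₁ e)
  have c2 : T₁ ⊓ stabilizer H (v + u) = ⊥ := by
    by_contra hb
    exact hg₁w (h.proj_mem hM hc hw h1 hb hg₁ hg₂T hgw)
  have c2' : ∀ K, CompIn K M → K ⊓ stabilizer H (v + u) = ⊥ := by
    intro K hK
    rw [← card_eq_one, h.card_comp_eq hM hc hw hK h1, card_eq_one, c2]
  -- there are only two components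
  have two : ∀ K, CompIn K M → K = T₁ ∨ K = T₂ := by
    intro K hK
    by_contra hn
    push Not at hn
    refine hRne K hK (eq_bot_iff.2 fun r hr => ?_)
    rw [← c2' K hK]
    refine ⟨hr.1, ?_⟩
    have hrv : r • v = v := hr.2
    show r • (v + u) = v + u
    rw [smul_add, hrv, hu, ← mul_smul, ← mul_assoc, comm_of_ne hK h1 hn.1 r hr.1 g₁ hg₁, mul_assoc,
      comm_of_ne hK h2' hn.2 r hr.1 g₂ hg₂, ← mul_assoc, mul_smul, hrv]
  have cent : ∀ d ∈ M, (∀ a ∈ T₁, a * d = d * a) → d ∈ T₂ := by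
    intro d hd hdT
    obtain ⟨t, ht, c, hcM, hcc, rfl⟩ := h2'.exists_mul (x := d) (by rwa [hM.layerIn_eq hc])
    rw [hM.layerIn_eq hc] at hcM
    have hc1 : ∀ a ∈ T₁, a * c = c * a := by
      intro a ha
      have := hdT a ha
      rw [← mul_assoc, hcomm a ha t ht, mul_assoc, mul_assoc] at this
      exact mul_left_cancel this
    have hcZ : c ∈ centralizer (M : Set H) ⊓ M := by
      refine ⟨?_, hcM⟩
      have : M ≤ centralizer ({c} : Set H) := by
        rw [← hM.layerIn_eq hc, layerIn_le_iff]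
        intro L hL a ha
        rw [mem_centralizer_singleton_iff]
        rcases two L hL with rfl | rfl
        · exact hc1 a ha
        · exact hcc a ha
      intro m hm
      exact mem_centralizer_singleton_iff.1 (this hm)
    rw [(SubnormalIn.refl M).centralizer_inf_eq_bot (hM.fittingIn_eq_bot hc), mem_bot] at hcZ
    rw [hcZ, mul_one]; exact ht
  have c3 : ∀ r ∈ T₁, r • v = v → r • u = u → r = 1 := by
    intro r hr hrv hru
    have : r ∈ T₁ ⊓ stabilizer H (v + u) := ⟨hr, show r • (v + u) = v + u by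
      rw [smul_add, hrv, hru]⟩
    rwa [c2, mem_bot] at this
  have hgM : g₁ * g₂ ∈ M := M.mul_mem (h1.le hg₁) (h2'.le hg₂)
  have hucard : Nat.card (T₂ ⊓ stabilizer H u : Subgroup H) =
      Nat.card (T₂ ⊓ stabilizer H v : Subgroup H) := card_comp_smul hM hc v h2' hgM
  have hSne : T₂ ⊓ stabilizer H u ≠ ⊥ := by
    rw [← one_lt_card_iff_ne_bot, hucard, one_lt_card_iff_ne_bot]; exact hRne _ h2'
  obtain ⟨s₀, hs₀, hs₀1⟩ := (bot_or_exists_ne_one _).resolve_left (hRne _ h1)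
  have hs₀v : s₀ • v = v := hs₀.2
  -- `u + t • u` is fixed by the stabilizer of `v` in `T₁`
  have c4 : ∀ t ∈ T₁, t • v = v → ∀ s ∈ T₁, s • v = v → s • (u + t • u) = u + t • u := by
    intro t ht htv
    obtain ⟨d, hdM, hdT, htd⟩ := h.exists_diag hM hc hw h1 hg₁ (h2'.le hg₂) hg₂T hgw hg₁w ht
    have hd := cent d hdM hdT
    have e1 : d • v + t • d • u = v + u := by
      rw [← htd, smul_add, mul_smul t d u, hdT t ht, mul_smul, htv]
    have e2 : d⁻¹ • v + v = d⁻¹ • u + t • u := by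
      have e3 := congrArg (fun z => d⁻¹ • z) e1
      simp only [smul_add, inv_smul_smul] at e3
      have e4 : d⁻¹ • t • d • u = t • u := by
        rw [← mul_smul t, hdT t ht, mul_smul, inv_smul_smul]
      rw [e4] at e3
      refine eq_of _ _ ?_
      calc d⁻¹ • v + v + (d⁻¹ • u + t • u) = (v + t • u) + (d⁻¹ • v + d⁻¹ • u) := by abel
        _ = 0 := by rw [e3, h2]
    have hdi : ∀ a ∈ T₁, a * d⁻¹ = d⁻¹ * a := fun a ha => hcomm a ha _ (T₂.inv_mem hd)
    have hy : u + s₀ • u ≠ 0 := fun e => hs₀1 (c3 s₀ hs₀.1 hs₀v (eq_of _ _ e).symm)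
    have e5 : d⁻¹ • (u + s₀ • u) = t • u + s₀ • t • u := by
      have e6 : s₀ • (d⁻¹ • v + v) = d⁻¹ • v + v := by
        rw [smul_add, ← mul_smul, hdi s₀ hs₀.1, mul_smul, hs₀v]
      rw [e2, smul_add, ← mul_smul s₀ d⁻¹, hdi s₀ hs₀.1, mul_smul] at e6
      rw [smul_add]
      refine eq_of _ _ ?_
      calc d⁻¹ • u + d⁻¹ • s₀ • u + (t • u + s₀ • t • u)
          = (d⁻¹ • u + t • u) + (d⁻¹ • s₀ • u + s₀ • t • u) := by abel
        _ = 0 := by rw [e6, h2]
    have hdu : d • u = u := by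
      refine h.key hM hc h2' hu0 hSne (hucard ▸ hmax _ _ h2' h2' _ hy) hd ?_ ?_
      · intro r hr hru
        rw [smul_add, hru, ← mul_smul, ← hcomm s₀ hs₀.1 r hr, mul_smul, hru]
      · intro r hr hru
        have e7 : r • t • u = t • u := by rw [← mul_smul, ← hcomm t ht r hr, mul_smul, hru]
        rw [mul_smul, mul_smul, e5, smul_add r, e7, ← mul_smul r s₀, ← hcomm s₀ hs₀.1 r hr,
          mul_smul, e7, ← e5, smul_inv_smul]
    have e8 : u + t • u = v + d • v := by
      rw [hdu] at e1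
      refine eq_of _ _ ?_
      calc u + t • u + (v + d • v) = (v + u) + (d • v + t • u) := by abel
        _ = 0 := by rw [e1, h2]
    intro s hs hsv
    rw [e8, smul_add, hsv, ← mul_smul, hdT s hs, mul_smul, hsv]
  have := h1.isSimpleGroup (hM.fittingIn_eq_bot hc)
  refine false_of_selfNorm h1.not_isMulCommutative (R := T₁ ⊓ stabilizer H v) inf_le_left
    (hRne _ h1) (fun r hr => ?_) (fun t ht hn => ⟨ht, ?_⟩)
  · have hrv : r • v = v := hr.2
    refine c3 _ (T₁.mul_mem hr.1 hr.1) (by rw [mul_smul, hrv, hrv]) ?_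
    have := c4 r hr.1 hrv r hr.1 hrv
    rw [smul_add, add_comm u] at this
    rw [mul_smul]
    exact add_left_cancel this
  · exact h.selfNorm hM hc hv h1 (hRne _ h1) ht fun r hr hrv => (hn r ⟨hr, hrv⟩).2

end Comp

theorem almostSimple [Finite H] (h : ExtAff H V) [Nontrivial V] (h2 : ∀ v : V, v + v = 0)
    (hFT : ∀ K : Subgroup H, Odd (Nat.card K) → Group.IsSolvable K) (hs : ¬ Group.IsSolvable H)
    (hcyc : ∀ M : Subgroup H, (∀ a ∈ M, ∀ b ∈ M, a * b = b * a) →
      (∀ m ∈ M, ∀ v : V, v ≠ 0 → m • v = v → m = 1) → IsCyclic M) :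
    ∃ T : Subgroup H, T.Normal ∧ IsSimpleGroup T ∧ ¬ IsMulCommutative T ∧
      centralizer (T : Set H) = ⊥ := by
  have : Nontrivial H := by
    by_contra hn
    have := not_nontrivial_iff_subsingleton.1 hn
    exact hs inferInstance
  obtain ⟨M, hM⟩ := exists_isMinNormal H
  have hc : ⁅M, M⁆ ≠ ⊥ := by
    intro hc
    have hcomm : ∀ a ∈ M, ∀ b ∈ M, a * b = b * a := fun a ha b hb =>
      (commute_of_commutator_eq_bot hc ha hb).eq
    exact hs (h.solvable_of_cyclic hM.normal hM.ne_bot (hcyc M hcomm fun m hm v hv =>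
      h.semireg hv hM.normal hM.normal hM.ne_bot hcomm m hm))
  obtain ⟨T, hT⟩ := exists_compIn_of_fittingIn_eq_bot hM.ne_bot (hM.fittingIn_eq_bot hc)
  have e : M = T := by
    refine le_antisymm ?_ hT.le
    rw [← hM.layerIn_eq hc, layerIn_le_iff]
    intro L hL
    rw [h.comp_unique h2 hFT hM hc hL hT]
  subst e
  refine ⟨M, hM.normal, hT.isSimpleGroup (hM.fittingIn_eq_bot hc), hT.not_isMulCommutative, ?_⟩
  by_contra hC
  obtain ⟨t, ht, ht2, ht1⟩ := exists_invol_not_mem hFT hM hc hT (R := ⊥)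
    (fun e => hT.ne_bot (eq_bot_iff.2 e))
  obtain ⟨x, hx, htx⟩ := exists_fixed h2 ht2
  have := hM.normal
  exact ht1 (h.semireg hx hM.normal inferInstance hC (fun m hm c hc => hc m hm) t ht htx)

end ExtAff

end Cfsg.Agent.H8
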