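/-
Insoluble extremely primitive groups of affine type, given the odd order theorem.
-/
import Cfsg.Agent.H8.ExtAff
import Cfsg.Agent.H8.FTRed
import Cfsg.Agent.H7.ExtPrim2
import Cfsg.Agent.H7.TwoMod4
import Cfsg.Agent.H3.FrobCompl

set_option autoImplicit false

namespace Cfsg.Agent.H8

open Subgroup MulAction Cfsg.Agent.H7

theorem extPrim_affine (hFT : H9.FT.FTStatement) {G : Type*} [Group G] [Finite G] {Ω : Type*}
    [Fintype Ω] [MulAction G Ω] [FaithfulSMul G Ω] (p d : ℕ) (hp : p.Prime)
    (hcard : Fintype.card Ω = p ^ d) (hsol : ¬ Group.IsSolvable G)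
    (N : Subgroup G) [hNn : N.Normal] (hN : N ≠ ⊥) (hNc : IsMulCommutative N)
    (hNreg : ∀ ω : Ω, stabilizer N ω = ⊥) (hprim : IsPreprimitive G Ω)
    (hep : ∀ (α : Ω) (ω : Ω), IsPreprimitive (stabilizer G α) (orbit (stabilizer G α) ω)) (α : Ω) :
    p = 2 ∧ ∃ T : Subgroup (stabilizer G α), T.Normal ∧ IsSimpleGroup T ∧ ¬ IsMulCommutative T ∧
      centralizer (T : Set (stabilizer G α)) = ⊥ := by
  have hreg : ∀ n ∈ N, n • α = α → n = 1 := stabilizer_subgroup_eq_bot_iff.1 (hNreg α)
  have htr := isPretransitive_of_normal_of_ne_bot (Ω := Ω) N hN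
  have hcN : Nat.card N = p ^ d := by
    rw [card_eq_of_regular htr α hreg, Nat.card_eq_fintype_card, hcard]
  have hmin : IsMinNormal N := by
    refine ⟨hNn, hN, fun M hM hMN => ?_⟩
    by_cases hb : M = ⊥
    · exact Or.inl hb
    · refine Or.inr (le_antisymm hMN fun n hn => ?_)
      obtain ⟨m, hm⟩ := (isPretransitive_of_normal_of_ne_bot (Ω := Ω) M hb).exists_smul_eq α (n • α)
      have : n⁻¹ * m = 1 := hreg _ (N.mul_mem (N.inv_mem hn) (hMN m.2)) (by
        rw [mul_smul, inv_smul_eq_iff]; exact hm)
      rw [inv_mul_eq_one] at this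
      rw [this]; exact m.2
  set H := stabilizer G α with hH
  -- `H` is insoluble
  have hHs : ¬ Group.IsSolvable H := by
    intro hs
    have : Group.IsSolvable N := Group.isSolvable_of_comm hNc.is_comm.comm
    have : Group.IsSolvable (G ⧸ N) := by
      refine Group.isSolvable_of_surjective (f := (QuotientGroup.mk' N).comp H.subtype) fun q => ?_
      obtain ⟨g, rfl⟩ := QuotientGroup.mk'_surjective N q
      obtain ⟨n, hn, k, hk, rfl⟩ := exists_mul_stabilizer htr α g
      refine ⟨⟨k, hk⟩, ?_⟩
      simp [(QuotientGroup.eq_one_iff n).2 hn]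
    exact hsol (Group.isSolvable_of_ker_le_range N.subtype (QuotientGroup.mk' N) (by simp))
  have hFT' : ∀ K : Subgroup H, Odd (Nat.card K) → Group.IsSolvable K := fun K hK =>
    hFT.solvable K hK
  let _ : CommGroup N := { (inferInstance : Group N) with mul_comm := hNc.is_comm.comm }
  let _ : DistribMulAction H (Additive N) :=
    { smul := fun g v => Additive.ofMul ⟨g * (v.toMul : G) * (g : G)⁻¹, hNn.conj_mem _ v.toMul.2 g⟩
      one_smul := fun v => by
        apply Additive.toMul.injective
        apply Subtype.ext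
        show ((1 : H) : G) * (v.toMul : G) * ((1 : H) : G)⁻¹ = _
        simp
      mul_smul := fun a b v => by
        apply Additive.toMul.injective
        apply Subtype.ext
        show ((a * b : H) : G) * (v.toMul : G) * ((a * b : H) : G)⁻¹ =
          a * (b * (v.toMul : G) * (b : G)⁻¹) * (a : G)⁻¹
        simp [mul_assoc]
      smul_zero := fun a => by
        apply Additive.toMul.injective
        apply Subtype.ext
        show (a : G) * 1 * (a : G)⁻¹ = 1
        simp
      smul_add := fun a v w => by
        apply Additive.toMul.injective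
        apply Subtype.ext
        show (a : G) * ((v.toMul : G) * w.toMul) * (a : G)⁻¹ =
          (a * (v.toMul : G) * (a : G)⁻¹) * (a * (w.toMul : G) * (a : G)⁻¹)
        group }
  have hsm : ∀ (g : H) (v : Additive N), g • v = v ↔ (g : G) * v.toMul * (g : G)⁻¹ = v.toMul :=
    fun g v => ⟨fun e => congrArg (fun z : Additive N => (z.toMul : G)) e,
      fun e => Additive.toMul.injective (Subtype.ext e)⟩
  have hsm' : ∀ (g : H) (v : Additive N), g • v = v ↔
      (g : G) • (v.toMul : G) • α = (v.toMul : G) • α := by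
    intro g v
    have hg : (g : G)⁻¹ • α = α := H.inv_mem g.2
    rw [hsm]
    constructor
    · intro e
      conv_rhs => rw [← e]
      rw [mul_smul, mul_smul, hg]
    · intro e
      have := hreg ((v.toMul : G)⁻¹ * (g * v.toMul * (g : G)⁻¹))
        (N.mul_mem (N.inv_mem v.toMul.2) (hNn.conj_mem _ v.toMul.2 g))
        (by rw [mul_smul, inv_smul_eq_iff, mul_smul, mul_smul, hg, e])
      rw [inv_mul_eq_one] at this
      exact this.symm
  have hne : ∀ v : Additive N, v ≠ 0 → (v.toMul : G) • α ≠ α := fun v hv e =>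
    hv (Additive.toMul.injective (Subtype.ext (hreg _ v.toMul.2 e)))
  have hE : ExtAff H (Additive N) := by
    constructor
    · intro v hv K hK
      have hp := hep α ((v.toMul : G) • α)
      have hf := faithful_orbit_of_ep hep (hne v hv)
      have e : stabilizer H v = stabilizer H (⟨(v.toMul : G) • α, mem_orbit_self _⟩ :
          orbit H ((v.toMul : G) • α)) := by
        ext g
        rw [mem_stabilizer_iff, mem_stabilizer_iff, hsm', Subtype.ext_iff]
        rfl
      rw [e] at hK ⊢
      exact eq_or_eq_top_of_stabilizer_le hK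
    · intro v hv M hM hle
      have hf := faithful_orbit_of_ep hep (hne v hv)
      refine eq_bot_of_normal_of_le_stabilizer (Ω := orbit H ((v.toMul : G) • α)) hM
        (a := ⟨(v.toMul : G) • α, mem_orbit_self _⟩) fun g hg => ?_
      exact Subtype.ext ((hsm' g v).1 (hle hg))
  have : Nontrivial N := (nontrivial_iff_ne_bot N).2 hN
  obtain ⟨r, hr, hrN⟩ := hmin.exists_prime_pow_eq_one (isMulCommutative_iff_commutator.1 hNc)
  have hr2 : r = 2 := by
    by_contra hr2
    have h2 : 2 ∣ Nat.card H := by
      by_contra h2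
      exact hHs (hFT.solvable H (Nat.odd_iff.2 (by omega)))
    obtain ⟨t, ht⟩ := exists_prime_orderOf_dvd_card' (G := H) 2 h2
    refine hHs (hE.solvable_of_odd (t := t) (fun v hv => ?_) (fun e => ?_) ?_)
    · have h1 : v.toMul ^ 2 = 1 := by rw [sq]; exact congrArg Additive.toMul hv
      have h3 : v.toMul ^ r = 1 := Subtype.ext (hrN _ v.toMul.2)
      have h4 := Nat.dvd_gcd (orderOf_dvd_of_pow_eq_one h1) (orderOf_dvd_of_pow_eq_one h3)
      rw [(Nat.coprime_primes Nat.prime_two hr).2 (Ne.symm hr2), Nat.dvd_one, orderOf_eq_one_iff]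
        at h4
      exact Additive.toMul.injective h4
    · rw [e, orderOf_one] at ht
      exact absurd ht (by norm_num)
    · rw [← sq, ← ht, pow_orderOf_eq_one]
  subst hr2
  have h2 : ∀ v : Additive N, v + v = 0 := fun v => Additive.toMul.injective (Subtype.ext (by
    have := hrN _ v.toMul.2
    rw [sq] at this
    exact this))
  refine ⟨?_, hE.almostSimple h2 hFT' hHs fun M hMc hMf => ?_⟩
  · obtain ⟨n, hn⟩ := exists_ne (1 : N)
    have : orderOf n = 2 := orderOf_eq_prime (Subtype.ext (hrN _ n.2)) hn
    have h3 := orderOf_dvd_natCard n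
    rw [this, hcN] at h3
    exact ((Nat.prime_dvd_prime_iff_eq Nat.prime_two hp).1 (Nat.prime_two.dvd_of_dvd_pow h3)).symm
  · have := H3.isCyclic_of_fpf_of_comm (H := M.map H.subtype) (K := N)
      (fun h _ k hk => hNn.conj_mem k hk h) (by
        rintro _ ⟨m, hm, rfl⟩ k hk e
        by_cases hk1 : k = 1
        · exact Or.inr hk1
        · left
          have := hMf m hm (Additive.ofMul ⟨k, hk⟩) (fun e' => hk1 (congrArg
            (fun z : Additive N => (z.toMul : G)) e')) ((hsm _ _).2 (by
              show (m : G) * k * (m : G)⁻¹ = k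
              rw [show (m : G) * k = k * m from e, mul_inv_cancel_right]))
          rw [this]; rfl) hN (by
        rintro _ ⟨a, ha, rfl⟩ _ ⟨b, hb, rfl⟩
        exact congrArg Subtype.val (hMc a ha b hb))
    exact isCyclic_of_injective (M.equivMapOfInjective H.subtype H.subtype_injective).toMonoidHom
      (M.equivMapOfInjective H.subtype H.subtype_injective).injective

end Cfsg.Agent.H8
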