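import Cfsg.Agent.H6.PrimeGraph
import Cfsg.Agent.H7.BG.S3b

/-! Prime graphs: a normal subgroup `T` of even order all of whose odd primes are joined to `2`
forces infinitely many groups with the same prime graph. -/

set_option autoImplicit false

namespace Cfsg.Agent.H8

open Subgroup Cfsg.Agent.H6 Cfsg.Agent.H7
open scoped Pointwise commutatorElement

universe u

theorem gk_exists_orderOf_mul {G : Type*} [Group G] [Finite G] {p q : ℕ} [hp : Fact p.Prime]
    [hq : Fact q.Prime] (hpq : p ≠ q) {x y : G} (hx : x ≠ 1) (hy : y ≠ 1) {a b : ℕ}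
    (hxa : x ^ p ^ a = 1) (hyb : y ^ q ^ b = 1) (hc : Commute x y) :
    ∃ g : G, orderOf g = p * q := by
  obtain ⟨i, -, hi⟩ := (Nat.dvd_prime_pow hp.out).1 (orderOf_dvd_of_pow_eq_one hxa)
  obtain ⟨j, -, hj⟩ := (Nat.dvd_prime_pow hq.out).1 (orderOf_dvd_of_pow_eq_one hyb)
  have hi0 : i ≠ 0 := by
    rintro rfl
    exact hx (orderOf_eq_one_iff.1 (by simpa using hi))
  have hj0 : j ≠ 0 := by
    rintro rfl
    exact hy (orderOf_eq_one_iff.1 (by simpa using hj))
  have hco : (orderOf x).Coprime (orderOf y) := by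
    rw [hi, hj]
    exact Nat.Coprime.pow _ _ ((Nat.coprime_primes hp.out hq.out).2 hpq)
  have := hc.orderOf_mul_eq_mul_orderOf_of_coprime hco
  exact mem_spec_of_dvd (g := x * y) (by
    rw [this, hi, hj]
    exact Nat.mul_dvd_mul (dvd_pow_self p hi0) (dvd_pow_self q hj0))

theorem gk_lift_prime {Y : Type*} [Group Y] [Finite Y] (N : Subgroup Y) [N.Normal] (y : Y ⧸ N)
    (hy : (orderOf y).Prime) (hN : ¬ orderOf y ∣ Nat.card N) :
    ∃ z : Y, (z : Y ⧸ N) = y ∧ orderOf z = orderOf y := by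
  obtain ⟨y₀, rfl⟩ := QuotientGroup.mk_surjective y
  set r := orderOf (y₀ : Y ⧸ N) with hr
  have h1 : y₀ ^ r ∈ N := by
    rw [← QuotientGroup.eq_one_iff, QuotientGroup.mk_pow, hr, pow_orderOf_eq_one]
  have h2 : (y₀ ^ r) ^ Nat.card N = 1 := by
    have := pow_card_eq_one' (G := N) (x := ⟨_, h1⟩)
    exact congrArg Subtype.val this
  have hco : Nat.Coprime (Nat.card N) r := ((Nat.Prime.coprime_iff_not_dvd hy).2 hN).symm
  obtain ⟨a, -, ha⟩ := Nat.exists_mul_mod_eq_one_of_coprime hco hy.one_lt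
  have h3 : ((y₀ ^ (Nat.card N * a) : Y) : Y ⧸ N) = y₀ := by
    rw [QuotientGroup.mk_pow, ← pow_mod_orderOf, ← hr, ha, pow_one]
  refine ⟨y₀ ^ (Nat.card N * a), h3, ?_⟩
  have := Fact.mk hy
  apply orderOf_eq_prime
  · rw [← pow_mul, show Nat.card N * a * r = r * Nat.card N * a by ring, pow_mul, pow_mul, h2,
      one_pow]
  · intro h
    rw [h] at h3
    have : r = 1 := by rw [hr, ← h3]; simp
    exact hy.one_lt.ne' this

/-- A central `p`-element of a group generated by `p'`-elements with abelian Sylow `p`-subgroups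
is trivial. -/
theorem gk_central_eq_one {X : Type*} [Group X] [Finite X] {p : ℕ} [hp : Fact p.Prime]
    (S : Set X) (hS : closure S = ⊤) (hS' : ∀ s ∈ S, (orderOf s).Coprime p) (R : Sylow p X)
    (hR : ∀ a b : R, a * b = b * a) {z : X} (hz : z ∈ center X) {k : ℕ} (hk : z ^ p ^ k = 1) :
    z = 1 := by
  let : CommGroup R := { (inferInstance : Group R) with mul_comm := hR }
  let τ : X →* R := MonoidHom.transfer (MonoidHom.id R)
  have hτ : ∀ x, τ x = 1 := by
    have : τ.ker = ⊤ := by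
      rw [eq_top_iff, ← hS, closure_le]
      intro s hs
      obtain ⟨n, hn⟩ := R.isPGroup' (τ s)
      have h1 : orderOf (τ s) ∣ p ^ n := orderOf_dvd_of_pow_eq_one hn
      have h2 : orderOf (τ s) ∣ orderOf s := orderOf_map_dvd τ s
      have h3 : orderOf (τ s) = 1 :=
        Nat.eq_one_of_dvd_coprimes ((hS' s hs).pow_right n) h2 h1
      exact orderOf_eq_one_iff.1 h3
    intro x
    have hx : x ∈ τ.ker := this ▸ mem_top x
    exact hx
  have h1 := MonoidHom.transfer_eq_pow (MonoidHom.id R) z (fun k g₀ _ => by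
    have := (mem_center_iff.1 ((center X).pow_mem hz k) g₀)
    rw [mul_assoc, ← this, inv_mul_cancel_left])
  have h2 : z ^ (R : Subgroup X).index = 1 := by
    have := hτ z
    rw [show τ z = _ from h1] at this
    exact congrArg Subtype.val this
  have hco : ((R : Subgroup X).index).Coprime (p ^ k) :=
    ((Nat.Prime.coprime_iff_not_dvd hp.out).2 R.not_dvd_index).symm.pow_right k
  exact orderOf_eq_one_iff.1 (Nat.eq_one_of_dvd_coprimes hco (orderOf_dvd_of_pow_eq_one h2)
    (orderOf_dvd_of_pow_eq_one hk))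

/-- If `p` odd is not joined to some prime divisor of `T`, the `p`-subgroups of `G / T` are
cyclic. -/
theorem gk_isCyclic_of_not_adj {G : Type*} [Group G] [Finite G] (T : Subgroup G) [T.Normal]
    {p q : ℕ} [hp : Fact p.Prime] [hq : Fact q.Prime] (hpq : p ≠ q) (hp2 : p ≠ 2)
    (hqT : q ∣ Nat.card T) (h : ¬ ∃ g : G, orderOf g = p * q) (B : Subgroup (G ⧸ T))
    (hB : IsPGroup p B) : IsCyclic B := by
  obtain ⟨Q⟩ : Nonempty (Sylow q T) := inferInstance
  set Q' := (Q : Subgroup T).map T.subtype with hQ'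
  have hQ1 : Q' ≠ ⊥ := by
    intro h0
    rw [hQ', map_eq_bot_iff_of_injective _ T.subtype_injective] at h0
    exact Q.ne_bot_of_dvd_card hqT h0
  have hQp : IsPGroup q Q' := Q.isPGroup'.map _
  have hfr := Sylow.normalizer_sup_eq_top Q
  set N := normalizer (Q' : Set G) with hN
  let f : N →* G ⧸ T := (QuotientGroup.mk' T).comp N.subtype
  have hf : Function.Surjective f := by
    intro x
    obtain ⟨g, rfl⟩ := QuotientGroup.mk_surjective x
    have hg : g ∈ ((N ⊔ T : Subgroup G) : Set G) := by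
      rw [show N ⊔ T = ⊤ from hfr]; trivial
    rw [mul_normal] at hg
    obtain ⟨n, hn, t, ht, rfl⟩ := hg
    refine ⟨⟨n, hn⟩, ?_⟩
    show ((n : G) : G ⧸ T) = ((n * t : G) : G ⧸ T)
    rw [QuotientGroup.mk_mul, (QuotientGroup.eq_one_iff t).2 ht, mul_one]
  obtain ⟨R⟩ : Nonempty (Sylow p N) := inferInstance
  have hR : IsCyclic ((R : Subgroup N).map N.subtype) := by
    have hRp : IsPGroup p ((R : Subgroup N).map N.subtype) := R.isPGroup'.map _
    refine odd_regular_pgroup_cyclic (H := Q') hRp ?_ hQ1 (map_subtype_le _) ?_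
    · obtain ⟨n, hn⟩ := IsPGroup.iff_card.1 hRp
      rw [hn]
      exact (hp.out.odd_of_ne_two hp2).pow
    · intro x hx hx1
      rw [eq_bot_iff]
      rintro y ⟨hy, hy'⟩
      by_contra hy1
      obtain ⟨a, ha⟩ := hRp ⟨x, hx⟩
      obtain ⟨b, hb⟩ := hQp ⟨y, hy⟩
      exact h (gk_exists_orderOf_mul hpq hx1 hy1 (congrArg Subtype.val ha)
        (congrArg Subtype.val hb) (mem_centralizer_iff.1 hy' x rfl))
  have hR' : IsCyclic R :=
    isCyclic_of_injective (((R : Subgroup N).equivMapOfInjective N.subtype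
      N.subtype_injective).toMonoidHom) (MulEquiv.injective _)
  have hR'' : IsCyclic (R.mapSurjective hf) := by
    refine isCyclic_of_surjective (f.subgroupMap (R : Subgroup N)) ?_
    exact MonoidHom.subgroupMap_surjective _ _
  obtain ⟨B', hB'⟩ := hB.exists_le_sylow
  have : IsCyclic B' :=
    isCyclic_of_injective (Sylow.equiv B' (R.mapSurjective hf)).toMonoidHom (MulEquiv.injective _)
  exact isCyclic_of_le hB'

/-- B&G 3.4 for an additive module. -/
theorem gk_comm_smul {Y V : Type*} [Group Y] [Finite Y] [AddCommGroup V] [Finite V]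
    [DistribMulAction Y V] (hV : ∀ v : V, 2 • v = 0) (P : Subgroup Y) [P.Normal] {p : ℕ}
    [hp : Fact p.Prime] (hP : IsPGroup p P) (hp2 : p ≠ 2) {x : Y} (hx : (orderOf x).Prime)
    (hx2 : orderOf x ≠ 2) (hxp : orderOf x ≠ p) (hf : ∀ w : V, x • w = w → w = 0) {a : Y}
    (ha : a ∈ P) (v : V) : ⁅a, x⁆ • v = v := by
  let M : Subgroup (Aff V Y) := (Aff.inl : Multiplicative V →* Aff V Y).range
  let K : Subgroup (Aff V Y) := P.map Aff.inr
  let R : Subgroup (Aff V Y) := zpowers (Aff.inr x)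
  have hMmem : ∀ z : Aff V Y, z ∈ M ↔ z.k = 1 := by
    intro z
    constructor
    · rintro ⟨w, rfl⟩; rfl
    · intro hz
      exact ⟨Multiplicative.ofAdd z.v, by ext <;> simp [Aff.inl, hz]⟩
  have hMn : M.Normal := ⟨fun z hz g => by
    rw [hMmem] at hz ⊢
    simp [hz]⟩
  have hKp : IsPGroup p K := hP.map _
  obtain ⟨n, hn⟩ := IsPGroup.iff_card.1 hKp
  have hRc : Nat.card R = orderOf x := by
    rw [Nat.card_zpowers, orderOf_injective _ Aff.inr_injective]
  have hM2 : IsPGroup 2 M := by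
    rintro ⟨z, hz⟩
    refine ⟨1, Subtype.ext ?_⟩
    exact Aff.pow_eq_one_of_proj (p := 2) hV z ((hMmem z).1 hz)
  obtain ⟨m, hm⟩ := IsPGroup.iff_card.1 hM2
  have := hKp.isNilpotent
  have := hM2.isNilpotent
  have key : ⁅K, R⁆ ≤ centralizer (M : Set (Aff V Y)) := by
    refine comm_le_cent_of_prime_fpf_sol inferInstance ?_ ?_ ?_ ?_ ?_ inferInstance ?_ ?_ ?_ ?_ ?_
    · rw [hn]; exact (hp.out.odd_of_ne_two hp2).pow
    · rw [hRc]; exact hx.odd_of_ne_two hx2
    · rw [hRc]; exact hx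
    · rw [zpowers_le]
      exact le_normalizer_map _ ⟨x, by rw [normalizer_eq_top]; trivial, rfl⟩
    · rw [hn, hRc]
      exact ((Nat.coprime_primes hp.out hx).2 hxp.symm).pow_left n
    · rw [normalizer_eq_top]; exact le_top
    · rw [normalizer_eq_top]; exact le_top
    · rw [hm, hn]
      exact Nat.Coprime.pow _ _ ((Nat.coprime_primes Nat.prime_two hp.out).2 hp2.symm)
    · rw [hm, hRc]
      exact ((Nat.coprime_primes Nat.prime_two hx).2 hx2.symm).pow_left m
    · rw [eq_bot_iff]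
      rintro z ⟨hz, hz'⟩
      have h1 := mem_centralizer_iff.1 hz' _ (mem_zpowers (Aff.inr x))
      have h2 := congrArg Aff.v h1
      have hzk := (hMmem z).1 hz
      simp [Aff.inr] at h2
      rw [mem_bot]
      ext
      · exact hf _ h2
      · exact hzk
  have h1 : ⁅(Aff.inr a : Aff V Y), Aff.inr x⁆ ∈ ⁅K, R⁆ :=
    commutator_mem_commutator ⟨a, ha, rfl⟩ (mem_zpowers _)
  have h2 := mem_centralizer_iff.1 (key h1) (Aff.inl (Multiplicative.ofAdd v)) ⟨_, rfl⟩
  rw [← map_commutatorElement] at h2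
  have h3 := congrArg Aff.v h2
  generalize ⁅a, x⁆ = c at h3 ⊢
  simpa [Aff.inr, Aff.inl] using h3.symm

/-- The data carried through the reduction. -/
structure GKDatum {G : Type u} [Group G] (T : Subgroup G) [T.Normal] {Y : Type u} [Group Y]
    (π : Y →* G ⧸ T) (V : Type u) [AddCommGroup V] [DistribMulAction Y V] : Prop where
  surj : Function.Surjective π
  adj : ∀ p q : ℕ, p.Prime → q.Prime → p ≠ q → (∃ y : Y, orderOf y = p * q) →
    ∃ g : G, orderOf g = p * q
  ker : ∀ p : ℕ, p.Prime → p ∣ Nat.card π.ker → p ∣ Nat.card T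
  two : ∀ v : V, 2 • v = 0
  nontriv : Nontrivial V
  fpf : ∀ y : Y, (orderOf y).Prime → orderOf y ≠ 2 →
    (∃ g : G, orderOf g = orderOf y * 2) ∨ ∀ w : V, y • w = w → w = 0

/-- Elements of odd prime order not joined to `2`. -/
def gkRho (G : Type u) [Group G] (Y : Type u) [Group Y] : Set Y :=
  {x | (orderOf x).Prime ∧ orderOf x ≠ 2 ∧ ¬ ∃ g : G, orderOf g = orderOf x * 2}

theorem gkRho_conj {G Y : Type u} [Group G] [Group Y] {x : Y} (hx : x ∈ gkRho G Y) (y : Y) :
    y * x * y⁻¹ ∈ gkRho G Y := by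
  have : orderOf (y * x * y⁻¹) = orderOf x := by
    rw [← MulAut.conj_apply, MulEquiv.orderOf_eq]
  simpa only [gkRho, Set.mem_ofPred_eq, this] using hx

instance gkRho_normal {G Y : Type u} [Group G] [Group Y] : (closure (gkRho G Y)).Normal :=
  ⟨fun n hn g => by
    induction hn using closure_induction with
    | mem x hx => exact subset_closure (gkRho_conj hx g)
    | one => simp
    | mul x y _ _ hx hy =>
      rw [show g * (x * y) * g⁻¹ = (g * x * g⁻¹) * (g * y * g⁻¹) by group]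
      exact mul_mem hx hy
    | inv x _ hx =>
      rw [show g * x⁻¹ * g⁻¹ = (g * x * g⁻¹)⁻¹ by group]
      exact inv_mem hx⟩

section
variable {G : Type u} [Group G] [Finite G] {T : Subgroup G} [T.Normal] {Y : Type u} [Group Y]
  [Finite Y] {π : Y →* G ⧸ T} {V : Type u} [AddCommGroup V] [DistribMulAction Y V]

omit [Finite G] [Finite Y] in
theorem GKDatum.sub (h : GKDatum T π V) (Y₀ : Subgroup Y) (h₀ : Y₀ ⊔ π.ker = ⊤) :
    GKDatum T (π.comp Y₀.subtype) V where
  surj := by
    intro x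
    obtain ⟨g, rfl⟩ := h.surj x
    have hg : g ∈ ((Y₀ ⊔ π.ker : Subgroup Y) : Set Y) := by rw [h₀]; trivial
    rw [mul_normal] at hg
    obtain ⟨n, hn, t, ht, rfl⟩ := hg
    refine ⟨⟨n, hn⟩, ?_⟩
    show π n = π (n * t)
    rw [map_mul, show π t = 1 from ht, mul_one]
  adj p q hp hq hpq := by
    rintro ⟨y, hy⟩
    exact h.adj p q hp hq hpq ⟨y, by rw [← hy, Subgroup.orderOf_coe]⟩
  ker p hp hd := by
    refine h.ker p hp (hd.trans ?_)
    refine card_dvd_of_injective (((Y₀.subtype.comp (π.comp Y₀.subtype).ker.subtype)).codRestrict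
      π.ker (fun x => x.2)) ?_
    intro a b hab
    have := congrArg Subtype.val hab
    exact Subtype.ext (Subtype.ext this)
  two := h.two
  nontriv := h.nontriv
  fpf y hy hy2 := by
    rw [← Subgroup.orderOf_coe] at hy hy2 ⊢
    exact h.fpf y hy hy2

omit [Finite G] in
theorem GKDatum.quo [Finite V] (h : GKDatum T π V)
    (hT : ∀ p : ℕ, p.Prime → p ≠ 2 → p ∣ Nat.card T → ∃ g : G, orderOf g = p * 2)
    (N : Subgroup Y) [N.Normal] (hN : N ≤ π.ker)
    (hX : ∀ x ∈ closure (gkRho G Y), x ∈ N → ∀ v : V, x • v = v) :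
    ∃ (W : Type u) (_ : AddCommGroup W) (_ : Finite W) (_ : DistribMulAction (Y ⧸ N) W),
      GKDatum T (QuotientGroup.lift N π hN) W := by
  classical
  let S : AddSubgroup (Y ⧸ N → V) :=
    { carrier := {f | ∀ x ∈ closure (gkRho G Y), ∀ y : Y ⧸ N, f (x * y) = x • f y}
      add_mem' := fun {a b} ha hb x hx y => by
        simp only [Pi.add_apply, smul_add, ha x hx y, hb x hx y]
      zero_mem' := fun x hx y => by simp
      neg_mem' := fun {a} ha x hx y => by simp only [Pi.neg_apply, smul_neg, ha x hx y] }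
  have hS : ∀ g : Y ⧸ N, ∀ f ∈ S, (fun x => f (x * g)) ∈ S := by
    intro g f hf x hx y
    show f (x * y * g) = x • f (y * g)
    rw [mul_assoc]
    exact hf x hx _
  refine ⟨S, inferInstance, inferInstance, rAction S hS, ?_⟩
  let := rAction S hS
  refine ⟨?_, ?_, ?_, ?_, ?_, ?_⟩
  · intro x
    obtain ⟨y, rfl⟩ := h.surj x
    exact ⟨y, rfl⟩
  · rintro p q hp hq hpq ⟨y, hy⟩
    obtain ⟨y, rfl⟩ := QuotientGroup.mk_surjective y
    exact h.adj p q hp hq hpq
      (mem_spec_of_dvd (g := y) (hy ▸ orderOf_map_dvd (QuotientGroup.mk' N) y))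
  · intro p hp hd
    refine h.ker p hp (hd.trans ?_)
    refine card_dvd_of_surjective (((QuotientGroup.mk' N).comp π.ker.subtype).codRestrict
      (QuotientGroup.lift N π hN).ker (fun x => x.2)) ?_
    rintro ⟨y, hy⟩
    obtain ⟨y, rfl⟩ := QuotientGroup.mk_surjective y
    exact ⟨⟨y, hy⟩, rfl⟩
  · intro f
    ext y
    exact h.two _
  · have := h.nontriv
    obtain ⟨w, hw⟩ := exists_ne (0 : V)
    have key : ∀ a ∈ closure (gkRho G Y), ∀ b ∈ closure (gkRho G Y), (a : Y ⧸ N) = b →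
        a • w = b • w := by
      intro a ha b hb hab
      have := hX (a⁻¹ * b) (mul_mem (inv_mem ha) hb) (QuotientGroup.eq.1 hab) w
      rw [← this, ← mul_smul, mul_inv_cancel_left, this]
    let f : Y ⧸ N → V := fun y =>
      if hy : ∃ x ∈ closure (gkRho G Y), (x : Y ⧸ N) = y then hy.choose • w else 0
    have hf : ∀ x ∈ closure (gkRho G Y), f x = x • w := by
      intro x hx
      have hy : ∃ x' ∈ closure (gkRho G Y), (x' : Y ⧸ N) = x := ⟨x, hx, rfl⟩
      simp only [f, dif_pos hy]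
      exact key _ hy.choose_spec.1 _ hx hy.choose_spec.2
    have hfS : f ∈ S := by
      intro x hx y
      by_cases hy : ∃ x' ∈ closure (gkRho G Y), (x' : Y ⧸ N) = y
      · obtain ⟨x', hx', rfl⟩ := hy
        rw [← QuotientGroup.mk_mul, hf _ (mul_mem hx hx'), hf _ hx', mul_smul]
      · have hy' : ¬ ∃ x' ∈ closure (gkRho G Y), (x' : Y ⧸ N) = x * y := by
          rintro ⟨x', hx', h'⟩
          exact hy ⟨x⁻¹ * x', mul_mem (inv_mem hx) hx', by
            rw [QuotientGroup.mk_mul, h', QuotientGroup.mk_inv, inv_mul_cancel_left]⟩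
        simp only [f, dif_neg hy, dif_neg hy', smul_zero]
    refine ⟨⟨f, hfS⟩, 0, fun h0 => hw ?_⟩
    have := congrFun (congrArg Subtype.val h0) ((1 : Y) : Y ⧸ N)
    rw [show (⟨f, hfS⟩ : S).1 = f from rfl, hf 1 (one_mem _), one_smul] at this
    exact this
  · intro y hy hy2
    by_cases ha : ∃ g : G, orderOf g = orderOf y * 2
    · exact Or.inl ha
    right
    obtain ⟨z, rfl, hz⟩ := gk_lift_prime N y hy (fun hd =>
      ha (hT _ hy hy2 (h.ker _ hy (hd.trans (card_dvd_of_le hN)))))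
    rw [← hz] at hy hy2 ha
    have hzρ : z ∈ gkRho G Y := ⟨hy, hy2, ha⟩
    intro f hf
    ext y
    obtain ⟨y, rfl⟩ := QuotientGroup.mk_surjective y
    have h1 : f.1 ((y : Y ⧸ N) * z) = f.1 y := congrFun (congrArg Subtype.val hf) (y : Y ⧸ N)
    have hc := gkRho_conj hzρ y
    have h2 := f.2 _ (subset_closure hc) y
    rw [← QuotientGroup.mk_mul, inv_mul_cancel_right, QuotientGroup.mk_mul, h1] at h2
    exact ((h.fpf _ hc.1 hc.2.1).resolve_left hc.2.2) _ h2.symm

theorem GKDatum.inf_eq_bot [Finite V] (h : GKDatum T π V)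
    (hT : ∀ p : ℕ, p.Prime → p ≠ 2 → p ∣ Nat.card T → ∃ g : G, orderOf g = p * 2)
    {p q : ℕ} [hp : Fact p.Prime] [hq : Fact q.Prime] (hpq : p ≠ q) (hp2 : p ≠ 2)
    (hpT : p ∣ Nat.card T) (hqT : q ∣ Nat.card T) (hn : ¬ ∃ g : G, orderOf g = p * q)
    (P : Sylow p π.ker) [hPn : ((P : Subgroup π.ker).map π.ker.subtype).Normal]
    (hA : ∀ a ∈ (P : Subgroup π.ker).map π.ker.subtype, (∀ v : V, a • v = v) → a = 1)
    {x : Y} (hx : x ∈ closure (gkRho G Y)) (hxP : x ∈ (P : Subgroup π.ker).map π.ker.subtype) :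
    x = 1 := by
  set P' := (P : Subgroup π.ker).map π.ker.subtype with hP'
  have hP'p : IsPGroup p P' := P.isPGroup'.map _
  have hρp : ∀ s ∈ gkRho G Y, orderOf s ≠ p := by
    intro s hs hsp
    exact hs.2.2 (hsp ▸ hT p hp.out hp2 hpT)
  have hc : closure (gkRho G Y) ≤ centralizer (P' : Set Y) := by
    rw [closure_le]
    intro s hs
    refine mem_centralizer_iff.2 fun a ha => ?_
    have h1 : ⁅a, s⁆ ∈ P' := by
      rw [commutatorElement_def, mul_assoc, mul_assoc]
      refine mul_mem ha ?_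
      rw [← mul_assoc]
      exact hPn.conj_mem _ (inv_mem ha) s
    exact commutatorElement_eq_one_iff_mul_comm.1 (hA _ h1 fun v =>
      gk_comm_smul h.two P' hP'p hp2 hs.1 hs.2.1 (hρp s hs)
        ((h.fpf s hs.1 hs.2.1).resolve_left hs.2.2) ha v)
  have hmem : ∀ y : Y, y ∈ π.ker → (∃ k, y ^ p ^ k = 1) → y ∈ P' := by
    rintro y hy ⟨k, hk⟩
    have hPn' : (P : Subgroup π.ker).Normal := by
      have := hPn.comap π.ker.subtype
      rwa [hP', comap_map_eq_self_of_injective π.ker.subtype_injective] at this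
    have h1 : IsPGroup p (zpowers (⟨y, hy⟩ : π.ker)) := by
      rw [IsPGroup.iff_card, Nat.card_zpowers]
      obtain ⟨i, -, hi⟩ := (Nat.dvd_prime_pow hp.out).1
        (orderOf_dvd_of_pow_eq_one (show (⟨y, hy⟩ : π.ker) ^ p ^ k = 1 from Subtype.ext hk))
      exact ⟨i, hi⟩
    obtain ⟨Q, hQ⟩ := h1.exists_le_sylow
    have : Q = P := by
      have := Sylow.unique_of_normal P hPn'
      exact Subsingleton.elim _ _
    exact ⟨⟨y, hy⟩, this ▸ hQ (mem_zpowers _), rfl⟩
  set X := closure (gkRho G Y) with hX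
  obtain ⟨R⟩ : Nonempty (Sylow p X) := inferInstance
  let f : R →* G ⧸ T := π.comp (X.subtype.comp (R : Subgroup X).subtype)
  have hfr : IsCyclic f.range :=
    gk_isCyclic_of_not_adj T hpq hp2 hqT hn _ (by
      rw [MonoidHom.range_eq_map]
      exact (R.isPGroup'.of_equiv (topEquiv.symm)).map f)
  have hR : ∀ a b : R, a * b = b * a := by
    refine (f.rangeRestrict.isMulCommutative_of_isCyclic_of_ker_le_center ?_).is_comm.comm
    intro a ha
    have ha' : ((a : X) : Y) ∈ π.ker := congrArg Subtype.val ha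
    obtain ⟨k, hk⟩ := R.isPGroup' a
    have h1 := hmem _ ha' ⟨k, congrArg (fun z : R => ((z : X) : Y)) hk⟩
    refine mem_center_iff.2 fun b => Subtype.ext (Subtype.ext ?_)
    exact (mem_centralizer_iff.1 (hc (b : X).2) _ h1).symm
  obtain ⟨k, hk⟩ := hP'p ⟨x, hxP⟩
  have hk' : x ^ p ^ k = 1 := congrArg Subtype.val hk
  have := gk_central_eq_one (X := X) (p := p) (X.subtype ⁻¹' gkRho G Y)
    (closure_preimage_eq_top _) (fun s hs => by
      rw [← Subgroup.orderOf_coe]
      exact (Nat.coprime_primes hs.1 hp.out).2 (hρp _ hs)) R hR (z := ⟨x, hx⟩)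
    (mem_center_iff.2 fun b => Subtype.ext (mem_centralizer_iff.1 (hc b.2) _ hxP).symm)
    (k := k) (Subtype.ext hk')
  exact congrArg Subtype.val this

theorem GKDatum.smaller [Finite V] (h : GKDatum T π V)
    (hT : ∀ p : ℕ, p.Prime → p ≠ 2 → p ∣ Nat.card T → ∃ g : G, orderOf g = p * 2)
    {p q : ℕ} (hp : p.Prime) (hq : q.Prime) (hpq : p ≠ q) (hpD : p ∣ Nat.card π.ker)
    (hqT : q ∣ Nat.card T) (hn : ¬ ∃ g : G, orderOf g = p * q) :
    ∃ (Y' : Type u) (_ : Group Y') (_ : Finite Y') (π' : Y' →* G ⧸ T) (W : Type u)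
      (_ : AddCommGroup W) (_ : Finite W) (_ : DistribMulAction Y' W),
      Nat.card Y' < Nat.card Y ∧ GKDatum T π' W := by
  have := Fact.mk hp
  have := Fact.mk hq
  have hpT := h.ker p hp hpD
  have hp2 : p ≠ 2 := by
    rintro rfl
    exact hn (mul_comm q 2 ▸ hT q hq hpq.symm hqT)
  obtain ⟨P⟩ : Nonempty (Sylow p π.ker) := inferInstance
  have hfr := Sylow.normalizer_sup_eq_top P
  set P' := (P : Subgroup π.ker).map π.ker.subtype with hP'
  have hP1 : P' ≠ ⊥ := by
    intro h0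
    rw [hP', map_eq_bot_iff_of_injective _ π.ker.subtype_injective] at h0
    exact P.ne_bot_of_dvd_card hpD h0
  have hquo : ∀ (N : Subgroup Y) [N.Normal], N ≠ ⊥ → N ≤ π.ker →
      (∀ x ∈ closure (gkRho G Y), x ∈ N → ∀ v : V, x • v = v) →
      ∃ (Y' : Type u) (_ : Group Y') (_ : Finite Y') (π' : Y' →* G ⧸ T) (W : Type u)
      (_ : AddCommGroup W) (_ : Finite W) (_ : DistribMulAction Y' W),
      Nat.card Y' < Nat.card Y ∧ GKDatum T π' W := by
    intro N _ hN1 hN hX
    obtain ⟨W, i1, i2, i3, hW⟩ := h.quo hT N hN hX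
    refine ⟨Y ⧸ N, inferInstance, inferInstance, _, W, i1, i2, i3, ?_, hW⟩
    rw [card_eq_card_quotient_mul_card_subgroup N]
    exact lt_mul_of_one_lt_right Nat.card_pos ((one_lt_card_iff_ne_bot N).2 hN1)
  by_cases hNt : normalizer (P' : Set Y) = ⊤
  · have hPn : P'.Normal := normalizer_eq_top_iff.1 hNt
    by_cases hA : P' ⊓ (MulAction.toPermHom Y V).ker = ⊥
    · refine hquo P' hP1 (map_subtype_le _) fun x hx hxP v => ?_
      rw [h.inf_eq_bot hT hpq hp2 hpT hqT hn P (fun a ha hv => by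
        have : a ∈ P' ⊓ (MulAction.toPermHom Y V).ker := ⟨ha, Equiv.ext hv⟩
        rwa [hA] at this) hx hxP, one_smul]
    · exact hquo _ hA (inf_le_left.trans (map_subtype_le _)) fun x _ hx v =>
        congrArg (fun σ : Equiv.Perm V => σ v) hx.2
  · refine ⟨normalizer (P' : Set Y), inferInstance, inferInstance, _, V, inferInstance,
      inferInstance, inferInstance, ?_, h.sub _ hfr⟩
    rw [← card_top (G := Y)]
    exact Nat.lt_of_le_of_ne (card_le_of_le le_top)
      fun he => hNt (eq_of_le_of_card_ge le_top he.ge)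

theorem GKDatum.exists_good [Finite V] (h : GKDatum T π V)
    (hT : ∀ p : ℕ, p.Prime → p ≠ 2 → p ∣ Nat.card T → ∃ g : G, orderOf g = p * 2) :
    ∃ (Y' : Type u) (_ : Group Y') (_ : Finite Y') (π' : Y' →* G ⧸ T) (W : Type u)
      (_ : AddCommGroup W) (_ : Finite W) (_ : DistribMulAction Y' W), GKDatum T π' W ∧
      ∀ p q : ℕ, p.Prime → q.Prime → p ≠ q → p ∣ Nat.card π'.ker → q ∣ Nat.card T →
        ∃ g : G, orderOf g = p * q := by
  induction hn : Nat.card Y using Nat.strong_induction_on generalizing Y V with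
  | _ n ih =>
    by_cases hg : ∀ p q : ℕ, p.Prime → q.Prime → p ≠ q → p ∣ Nat.card π.ker → q ∣ Nat.card T →
        ∃ g : G, orderOf g = p * q
    · exact ⟨Y, inferInstance, inferInstance, π, V, inferInstance, inferInstance, inferInstance,
        h, hg⟩
    · push Not at hg
      obtain ⟨p, q, hp, hq, hpq, h1, h2, h3⟩ := hg
      obtain ⟨Y', _, _, π', W, _, _, _, hlt, hW⟩ :=
        h.smaller hT hp hq hpq h1 h2 (by rintro ⟨g, hg⟩; exact h3 g hg)
      exact ih _ (hn ▸ hlt) hW rfl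

end

theorem gk_exists_datum {G : Type u} [Group G] [Finite G] (T : Subgroup G) [T.Normal]
    (h2 : 2 ∣ Nat.card T) :
    ∃ (Y : Type u) (_ : Group Y) (_ : Finite Y) (π : Y →* G ⧸ T) (W : Type u)
      (_ : AddCommGroup W) (_ : Finite W) (_ : DistribMulAction Y W), GKDatum T π W := by
  obtain ⟨S⟩ : Nonempty (Sylow 2 T) := inferInstance
  have hfr := Sylow.normalizer_sup_eq_top S
  set S' := (S : Subgroup T).map T.subtype with hS'
  have hS1 : S' ≠ ⊥ := by
    intro h0
    rw [hS', map_eq_bot_iff_of_injective _ T.subtype_injective] at h0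
    exact S.ne_bot_of_dvd_card h2 h0
  have hS2 : IsPGroup 2 S' := S.isPGroup'.map _
  set L := normalizer (S' : Set G) with hL
  have hSL : S' ≤ L := le_normalizer
  have hS2' : IsPGroup 2 (S'.subgroupOf L) := hS2.of_equiv (subgroupOfEquivOfLe hSL).symm
  have := hS2'.isNilpotent
  obtain ⟨V, p, hVn, hVS, hV1, hp, hVp, hVc⟩ := exists_normal_elementary (S'.subgroupOf L)
    (fun h0 => hS1 (by
      rwa [subgroupOf_eq_bot, disjoint_iff, inf_of_le_left hSL] at h0)) inferInstance
  have hV2 : IsPGroup 2 V := hS2'.to_le hVS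
  have hp2 : p = 2 := by
    obtain ⟨⟨x, hx⟩, hx1⟩ := (ne_bot_iff_exists_ne_one).1 hV1
    obtain ⟨k, hk⟩ := hV2 ⟨x, hx⟩
    have := Fact.mk hp
    have h1 : orderOf (⟨x, hx⟩ : V) = p := orderOf_eq_prime (Subtype.ext (hVp x hx)) hx1
    have h2 := orderOf_dvd_of_pow_eq_one hk
    rw [h1] at h2
    exact (Nat.prime_dvd_prime_iff_eq hp Nat.prime_two).1 (hp.dvd_of_dvd_pow h2)
  subst hp2
  let : CommGroup V := { (inferInstance : Group V) with
    mul_comm := fun a b => Subtype.ext (hVc a a.2 b b.2) }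
  let act : DistribMulAction L (Additive V) :=
    { smul := fun g v => Additive.ofMul (MulAut.conjNormal g v.toMul)
      one_smul := fun v => by
        show Additive.ofMul (MulAut.conjNormal (1 : L) v.toMul) = v
        simp
      mul_smul := fun a b v => by
        show Additive.ofMul (MulAut.conjNormal (a * b) v.toMul) =
          Additive.ofMul (MulAut.conjNormal a (MulAut.conjNormal b v.toMul))
        simp
      smul_zero := fun a => by
        show Additive.ofMul (MulAut.conjNormal a (1 : V)) = 0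
        simp
      smul_add := fun a v w => by
        show Additive.ofMul (MulAut.conjNormal a (v.toMul * w.toMul)) =
          Additive.ofMul (MulAut.conjNormal a v.toMul * MulAut.conjNormal a w.toMul)
        simp }
  refine ⟨L, inferInstance, inferInstance, (QuotientGroup.mk' T).comp L.subtype, Additive V,
    inferInstance, inferInstance, act, ?_, ?_, ?_, ?_, ?_, ?_⟩
  · intro x
    obtain ⟨g, rfl⟩ := QuotientGroup.mk_surjective x
    have hg : g ∈ ((L ⊔ T : Subgroup G) : Set G) := by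
      rw [show L ⊔ T = ⊤ from hfr]; trivial
    rw [mul_normal] at hg
    obtain ⟨n, hn, t, ht, rfl⟩ := hg
    refine ⟨⟨n, hn⟩, ?_⟩
    show ((n : G) : G ⧸ T) = ((n * t : G) : G ⧸ T)
    rw [QuotientGroup.mk_mul, (QuotientGroup.eq_one_iff t).2 ht, mul_one]
  · rintro p q - - - ⟨y, hy⟩
    exact ⟨y, by rw [← hy, Subgroup.orderOf_coe]⟩
  · intro p hp hd
    refine hd.trans (card_dvd_of_injective (((L.subtype.comp
      ((QuotientGroup.mk' T).comp L.subtype).ker.subtype)).codRestrict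
      T (fun x => (QuotientGroup.eq_one_iff _).1 x.2)) ?_)
    intro a b hab
    have := congrArg Subtype.val hab
    exact Subtype.ext (Subtype.ext this)
  · intro v
    show v.toMul ^ 2 = 1
    exact Subtype.ext (hVp _ v.toMul.2)
  · have := (nontrivial_iff_ne_bot V).2 hV1
    exact (inferInstance : Nontrivial V)
  · intro y hy hy2
    by_cases ha : ∃ g : G, orderOf g = orderOf y * 2
    · exact Or.inl ha
    right
    intro w hw
    by_contra hw0
    have := Fact.mk hy
    have h1 : y * (w.toMul : L) * y⁻¹ = w.toMul := congrArg (fun z : Additive V => (z.toMul : L)) hw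
    obtain ⟨g, hg⟩ := gk_exists_orderOf_mul (G := L) (p := orderOf y) (q := 2) hy2 (x := y)
      (y := w.toMul) (fun h0 => hy.one_lt.ne' (by rw [h0, orderOf_one]))
      (fun h0 => hw0 (Subtype.ext h0)) (a := 1) (b := 1) (by simp)
      (by simpa using hVp _ w.toMul.2) (mul_inv_eq_iff_eq_mul.1 h1)
    exact ha ⟨g, by rw [← hg, Subgroup.orderOf_coe]⟩

/-- If a normal subgroup `T` has even order and each odd prime divisor of `|T|` is joined to `2`,
then groups with the prime graph of `G` have unbounded order. -/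
theorem gk_large_of_normal {G : Type u} [Group G] [Finite G] (T : Subgroup G) [T.Normal]
    (h2 : 2 ∣ Nat.card T)
    (hT : ∀ p : ℕ, p.Prime → p ≠ 2 → p ∣ Nat.card T → ∃ g : G, orderOf g = p * 2) (n : ℕ) :
    ∃ (H : Type) (_ : Group H) (_ : Finite H), n < Nat.card H ∧
      ((∀ p : ℕ, p.Prime → (p ∣ Nat.card G ↔ p ∣ Nat.card H)) ∧
      (∀ p q : ℕ, p.Prime → q.Prime → p ≠ q →
        ((∃ g : G, orderOf g = p * q) ↔ (∃ g : H, orderOf g = p * q)))) := by
  obtain ⟨Y₀, _, _, π₀, V₀, _, _, _, h₀⟩ := gk_exists_datum T h2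
  obtain ⟨Y, _, _, π, V, _, _, _, h, hg⟩ := h₀.exists_good hT
  let K : Subgroup (G × Y) := MonoidHom.eqLocus ((QuotientGroup.mk' T).comp (MonoidHom.fst G Y))
    (π.comp (MonoidHom.snd G Y))
  have hK : ∀ k : K, ((k.1.1 : G) : G ⧸ T) = π k.1.2 := fun k => k.2
  let : DistribMulAction K V := DistribMulAction.compHom V ((MonoidHom.snd G Y).comp K.subtype)
  have hord : ∀ k : K, orderOf k = (orderOf k.1.1).lcm (orderOf k.1.2) := fun k => by
    rw [← Subgroup.orderOf_coe, Prod.orderOf]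
  have hup : ∀ m : ℕ, m ∈ Set.range (orderOf : G → ℕ) → m ∈ Set.range (orderOf : K → ℕ) := by
    rintro _ ⟨g, rfl⟩
    obtain ⟨y, hy⟩ := h.surj g
    exact mem_spec_of_dvd (g := (⟨(g, y), hy.symm⟩ : K)) (by rw [hord]; exact Nat.dvd_lcm_left _ _)
  have hTd : ∀ g : G, g ∈ T → orderOf g ∣ Nat.card T := fun g hg => by
    rw [← Subgroup.orderOf_mk g hg]; exact orderOf_dvd_natCard _
  have hDd : ∀ g : Y, g ∈ π.ker → orderOf g ∣ Nat.card π.ker := fun g hg => by
    rw [← Subgroup.orderOf_mk g hg]; exact orderOf_dvd_natCard _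
  have hcop : ∀ k : K, (orderOf k.1.1).Coprime (orderOf k.1.2) → k.1.1 ∈ T ∧ k.1.2 ∈ π.ker := by
    intro k hk
    have h1 : orderOf (π k.1.2) ∣ orderOf k.1.1 :=
      hK k ▸ orderOf_map_dvd (QuotientGroup.mk' T) k.1.1
    have h3 : π k.1.2 = 1 :=
      orderOf_eq_one_iff.1 (Nat.eq_one_of_dvd_coprimes hk h1 (orderOf_map_dvd π _))
    exact ⟨(QuotientGroup.eq_one_iff _).1 ((hK k).trans h3), h3⟩
  have h1 : ∀ p : ℕ, p.Prime →
      (p ∈ Set.range (orderOf : G → ℕ) ↔ p ∈ Set.range (orderOf : K → ℕ)) := by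
    refine fun p hp => ⟨hup p, ?_⟩
    rintro ⟨k, hk⟩
    rw [hord] at hk
    rcases (Nat.dvd_prime hp).1 (hk ▸ Nat.dvd_lcm_left _ _ : orderOf k.1.1 ∣ p) with h3 | h3
    · rw [h3, Nat.lcm_one_left] at hk
      have h4 := (hcop k (by rw [h3]; exact Nat.coprime_one_left _)).2
      exact (prime_dvd_card_iff hp).1
        ((h.ker p hp (hk ▸ hDd _ h4)).trans (card_subgroup_dvd_card T))
    · exact ⟨_, h3⟩
  have h3 : ∀ p q : ℕ, p.Prime → q.Prime → p ≠ q →
      (p * q ∈ Set.range (orderOf : G → ℕ) ↔ p * q ∈ Set.range (orderOf : K → ℕ)) := by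
    refine fun p q hp hq hpq => ⟨hup _, ?_⟩
    rintro ⟨k, hk⟩
    rw [hord] at hk
    have hco := (Nat.coprime_primes hp hq).2 hpq
    have ha : orderOf k.1.1 ∣ p * q := hk ▸ Nat.dvd_lcm_left _ _
    have hb : orderOf k.1.2 ∣ p * q := hk ▸ Nat.dvd_lcm_right _ _
    have hpl : p ∣ orderOf k.1.1 ∨ p ∣ orderOf k.1.2 :=
      (hp.dvd_lcm).1 (hk ▸ dvd_mul_right p q)
    have hql : q ∣ orderOf k.1.1 ∨ q ∣ orderOf k.1.2 :=
      (hq.dvd_lcm).1 (hk ▸ dvd_mul_left q p)
    by_cases hA : p * q ∣ orderOf k.1.1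
    · exact mem_spec_of_dvd hA
    by_cases hB : p * q ∣ orderOf k.1.2
    · exact h.adj p q hp hq hpq (mem_spec_of_dvd hB)
    have hc : (orderOf k.1.1).Coprime (orderOf k.1.2) := by
      refine Nat.coprime_of_dvd fun r hr hr1 hr2 => ?_
      rcases (hr.dvd_mul).1 (hr1.trans ha) with h5 | h5
      · obtain rfl := (Nat.prime_dvd_prime_iff_eq hr hp).1 h5
        rcases hql with h6 | h6
        · exact hA (hco.mul_dvd_of_dvd_of_dvd hr1 h6)
        · exact hB (hco.mul_dvd_of_dvd_of_dvd hr2 h6)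
      · obtain rfl := (Nat.prime_dvd_prime_iff_eq hr hq).1 h5
        rcases hpl with h6 | h6
        · exact hA (hco.mul_dvd_of_dvd_of_dvd h6 hr1)
        · exact hB (hco.mul_dvd_of_dvd_of_dvd h6 hr2)
    obtain ⟨h5, h6⟩ := hcop k hc
    rcases hpl with h7 | h7 <;> rcases hql with h8 | h8
    · exact absurd (hco.mul_dvd_of_dvd_of_dvd h7 h8) hA
    · obtain ⟨g, hg'⟩ := hg q p hq hp hpq.symm (h8.trans (hDd _ h6)) (h7.trans (hTd _ h5))
      exact ⟨g, hg'.trans (mul_comm _ _)⟩
    · exact hg p q hp hq hpq (h7.trans (hDd _ h6)) (h8.trans (hTd _ h5))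
    · exact absurd (hco.mul_dvd_of_dvd_of_dvd h7 h8) hB
  have := h.nontriv
  refine primeGraph_large_of_aff (K := K) (V := V) Nat.prime_two h.two
    (hup 2 ((prime_dvd_card_iff Nat.prime_two).1 (h2.trans (card_subgroup_dvd_card T)))) ?_ h1 h3 n
  intro k hk hk2
  by_cases ha : ∃ g : G, orderOf g = orderOf k * 2
  · exact Or.inl (hup _ ha)
  right
  have hb : orderOf k.1.2 ∣ orderOf k := (hord k).symm ▸ Nat.dvd_lcm_right _ _
  rcases (Nat.dvd_prime hk).1 hb with h4 | h4
  · have h5 := hord k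
    rw [h4, Nat.lcm_one_right] at h5
    have h6 := (hcop k (by rw [h4]; exact Nat.coprime_one_right _)).1
    exact absurd (hT _ hk hk2 (h5 ▸ hTd _ h6)) ha
  · rw [← h4] at hk hk2 ha
    exact (h.fpf _ hk hk2).resolve_left ha

end Cfsg.Agent.H8
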