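import Cfsg.Agent.S3334
import Cfsg.Agent.H8.McAlt
import Cfsg.Agent.H1.T3Basic

/-!
# The outer automorphism group of the McLaughlin group has order at most two
-/

set_option autoImplicit false

namespace Cfsg.Agent.H8.Mc

open Cfsg.Agent.L0.McL Cfsg.Agent.L0.Cover Cfsg.Agent.H4 Equiv Subgroup Cfsg.Agent.H1.T3

/-- The centralizer of `t` is a nonsplit double cover of `A₈`. -/
structure Cov {G : Type*} [Group G] (t : G)
    (f : centralizer ({t} : Set G) →* alternatingGroup (Fin 8)) : Prop where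
  t2 : t * t = 1
  t1 : t ≠ 1
  surj : Function.Surjective f
  ker : ∀ k, f k = 1 ↔ (k : G) = 1 ∨ k = t
  sq : ∃ l : G, l * l = t
  ni : ¬ IsIsolated t

theorem z_chk : enum 4095 (fun f => imp (CM f (ap ce1)) (imp (CM f (ap ce2)) (imp (CM f (ap ca))
    (imp (EE (ap cs ⊙ ap cY ⊙ f ⊙ (ap cs ⊙ ap cY ⊙ f)) idf) (bor (EE f idf) (EE f (ap cu)))))))
    dC idf = true := by decide +kernel

theorem z_cases {z : H0} (h0 : Commute z eu) (h1 : Commute z ee1) (h2 : Commute z ee2)
    (h3 : Commute z ea) (h4 : es * eY * z * (es * eY * z) = 1) : z = 1 ∨ z = eu := by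
  obtain ⟨f, _, k⟩ := forall_D z_chk h0
  simp only [imp_iff, bor_eq_true, CM_iff, EE_iff] at k
  simpa only [Subtype.ext_iff, Subgroup.coe_one] using
    k (comm_coe.mp h1) (comm_coe.mp h2) (comm_coe.mp h3) h4

theorem aut_mem {G : Type*} [Group G] {t k : G} {α : MulAut G} (hα : α t = t)
    (hk : k ∈ centralizer ({t} : Set G)) : α k ∈ centralizer ({t} : Set G) :=
  mem_cent.mpr (by rw [← hα, ← map_mul, ← map_mul, mem_cent.mp hk])

namespace Cov

variable {G : Type*} [Group G] [Finite G] {t : G}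
  {f : centralizer ({t} : Set G) →* alternatingGroup (Fin 8)} (h : Cov t f)
include h

omit [Finite G] in
theorem idx2 {L : Subgroup (centralizer ({t} : Set G))} (hL : L.index = 2) :
    (⟨t, mem_cent.mpr rfl⟩ : centralizer ({t} : Set G)) ∈ L := by
  obtain ⟨l, rfl⟩ := h.sq
  exact mul_self_mem_of_index_two hL ⟨l, mem_cent.mpr (mul_assoc l l l).symm⟩

omit [Finite G] in
theorem cover : IsNonsplitDoubleCover (centralizer ({t} : Set G)) (alternatingGroup (Fin 8)) := by
  have h1 : center (centralizer ({t} : Set G)) = f.ker := by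
    ext k
    rw [mem_center_iff, MonoidHom.mem_ker]
    constructor
    · intro hk
      rw [← mem_bot, ← alternatingGroup.center_eq_bot (by simp), mem_center_iff]
      intro g
      obtain ⟨g, rfl⟩ := h.surj g
      rw [← map_mul, hk, map_mul]
    · intro hk g
      rcases (h.ker k).mp hk with e | e <;> refine Subtype.ext ?_
      · simp [e]
      · simpa [e] using mem_cent.mp g.2
  have h2 : f.ker = zpowers ⟨t, mem_cent.mpr rfl⟩ := by
    ext k
    rw [mem_zpowers_two (Subtype.ext h.t2), MonoidHom.mem_ker, h.ker, Subtype.ext_iff,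
      Subtype.ext_iff]
    rfl
  have h3 : Nat.card (center (centralizer ({t} : Set G))) = 2 := by
    rw [h1, h2, Nat.card_zpowers]
    exact orderOf_two (Subtype.ext h.t2) fun e => h.t1 (congrArg Subtype.val e)
  refine ⟨h3, ⟨(QuotientGroup.quotientMulEquivOfEq h1).trans
    (QuotientGroup.quotientKerEquivOfSurjective f h.surj)⟩, fun L hL => h.t1 ?_⟩
  have := hL.disjoint.le_bot ⟨h1 ▸ h2 ▸ mem_zpowers _, h.idx2 (hL.index_eq_card.trans h3)⟩
  exact congrArg Subtype.val (mem_bot.mp this)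

theorem mcl : Nonempty (G ≃* Spor.McL) := by
  refine (S3334.result t (orderOf_two h.t2 h.t1) h.cover).resolve_left fun e => h.ni fun g hg => ?_
  have := H7.pPrimeCore_characteristic 2 G
  have h1 : g ∈ (↑(centralizer {t} ⊔ oddCore G) : Set G) := e ▸ mem_top g
  rw [sup_comm, normal_mul] at h1
  obtain ⟨o, ho, k, hk, rfl⟩ := h1
  have h2 : o * k * t * (o * k)⁻¹ = o * t * o⁻¹ := by
    rw [mul_assoc o, mem_cent.mp hk]; group
  simp only [h2] at hg ⊢
  have h3 : o * t * o⁻¹ * t⁻¹ ∈ oddCore G := by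
    simpa [mul_assoc] using mul_mem ho ((inferInstance : (oddCore G).Normal).conj_mem _ (inv_mem ho) t)
  rw [← mul_inv_eq_one]
  refine H3.pow_eq_one_of_coprime (H7.pPrimeCore_coprime 2 G)
    (congrArg Subtype.val (pow_card_eq_one' (x := (⟨_, h3⟩ : oddCore G)))) ?_
  rw [hg.symm.inv_right.mul_pow, conj_pow, inv_pow, pow_two, h.t2]
  simp

theorem model : ∃ (ψ : H0 →* G) (φ : MM →* G), Function.Injective ψ ∧ ψ eT = t ∧
    (∀ g : G, Commute g t → ∃ k, ψ k = g) ∧ Function.Bijective φ ∧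
    ∀ k : H0, φ ⟨k, H0_le k.2⟩ = ψ k := by
  obtain ⟨ψ, hψ, rfl, hC⟩ :=
    exists_psi (orderOf_two h.t2 h.t1) h.cover pres2_XX rfl card_H0_cov.1.ge
  obtain ⟨φ, h1, h2⟩ := S3334.exists_phi hψ hC h.ni
  obtain ⟨e⟩ := h.mcl
  exact ⟨ψ, φ, hψ, rfl, hC, (Nat.bijective_iff_injective_and_card φ).mpr
    ⟨h1, by rw [card_MM, Nat.card_congr e.toEquiv, card_McL]⟩, h2⟩

theorem conj_inv {x : G} (h2 : x * x = 1) (h1 : x ≠ 1) : ∃ g, g * t * g⁻¹ = x := by
  obtain ⟨ψ, φ, -, rfl, -, hφ, e⟩ := h.model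
  obtain ⟨x, rfl⟩ := hφ.2 x
  obtain ⟨l, hl, e'⟩ := inv_MM x.2
    (congrArg Subtype.val (hφ.1 (show φ (x * x) = φ 1 by rw [map_mul, h2, map_one])))
    fun e => h1 (by rw [show x = 1 from Subtype.ext e, map_one])
  refine ⟨φ ⟨l, hl⟩, ?_⟩
  rw [← e, ← map_mul, ← map_inv, ← map_mul]
  exact congrArg φ (Subtype.ext e')

theorem fix (α : MulAut G) (hα : ∀ k, Commute k t → α k = k) : ∃ g, α = MulAut.conj g := by
  obtain ⟨ψ, φ, hψ, rfl, hC, hφ, e⟩ := h.model
  have h0 : ∀ k, α (ψ k) = ψ k := fun k => hα _ ((comm_T k).map ψ)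
  let Y : MM := ⟨eY, RA.mem (ap cY)⟩
  have gen : ∀ β : MulAut G, (∀ k, β (ψ k) = ψ k) → α (φ Y) = β (φ Y) → α = β := by
    intro β h1 h2
    have h3 : MM ≤ ((α.toMonoidHom.eqLocus β.toMonoidHom).comap φ).map MM.subtype := by
      refine Grp_le (by norm_num) fun c hc => ?_
      rcases List.mem_cons.mp hc with rfl | hc
      · exact inG_of_RA (h := RA.of_word (e := wh) (by decide +kernel))
          ⟨⟨hw wh, H0_le (hw wh).2⟩, by
            change α (φ _) = β (φ _)
            rw [e, h0, h1], rfl⟩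
      · rw [List.mem_singleton.mp hc]
        exact inG_of_RA (g := eY) ⟨Y, h2, rfl⟩
    ext g
    obtain ⟨x, rfl⟩ := hφ.2 g
    obtain ⟨y, hy, e'⟩ := h3 x.2
    rw [← show y = x from Subtype.ext e']
    exact hy
  obtain ⟨y0, hy0⟩ := mdl.exists_y1 hψ hC h.ni
  have r1 : Rl ψ eu (φ Y) eY := fun x hx => by
    obtain ⟨x', a, b, -⟩ := hy0 x hx
    refine ⟨x', a, b, ?_⟩
    rw [← e, ← e, ← map_mul, ← map_mul]
    exact congrArg φ (Subtype.ext b)
  have r2 : Rl ψ eu (α (φ Y)) eY := fun x hx => by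
    obtain ⟨x', a, b, c⟩ := r1 x hx
    exact ⟨x', a, b, by rw [← h0 x, ← h0 x', ← map_mul, c, map_mul]⟩
  have r3 : Rl ψ eu (φ Y * φ Y * α (φ Y)) 1 := mdl.Y3 ▸ (r1.mul r1).mul r2
  obtain ⟨z, ez, c0, c1, c2⟩ := mdl.exists_cen hψ hC r3
  have c3 : Commute z ea := Commute.of_map hψ (ez ▸ r3.comm comm_au)
  have hY : α (φ Y) = φ Y * ψ z := by
    rw [ez, ← mul_assoc, ← mul_assoc, mdl.cube hψ hC r1, one_mul]
  have hs : ψ es * φ Y * (ψ es * φ Y) = 1 := by
    rw [← e, ← map_mul, ← map_mul, ← map_one φ]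
    exact congrArg φ (Subtype.ext mdl.sY)
  have hs' := congrArg α hs
  simp only [map_mul, map_one, h0, hY] at hs'
  simp only [← e, ← map_mul, map_eq_one_iff φ hφ.1] at hs'
  rcases z_cases c0 c1 c2 c3 (by simpa [mul_assoc] using congrArg Subtype.val hs') with rfl | rfl
  · exact ⟨1, (gen 1 (fun _ => rfl) (by simpa using hY)).trans (map_one _).symm⟩
  · refine ⟨ψ eT, gen _ (fun k => ?_) ?_⟩
    · rw [MulAut.conj_apply, ← ((comm_T k).map ψ).eq, mul_inv_cancel_right]
    · rw [hY, MulAut.conj_apply, ← e, ← e, ← map_mul, ← map_mul, ← map_inv, ← map_mul]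
      refine congrArg φ (Subtype.ext ?_)
      have h1 : (eT : Perm (Fin 275)) * eu = eY⁻¹ * eT * eY := mdl.Tu
      change eY * eu = eT * eY * (eT : Perm (Fin 275))⁻¹
      rw [show (eT : Perm (Fin 275)) * eY = eY * (eY⁻¹ * eT * eY) by group, ← h1,
        ← (comm_coe.mp (comm_T eu)).eq]
      group

omit [Finite G] in
theorem induced (α : MulAut G) (hα : α t = t) : ∃ σ : Perm (Fin 8),
    ∀ k k' : centralizer ({t} : Set G), α k = k' → (f k' : Perm (Fin 8)) = σ * f k * σ⁻¹ := by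
  let β : centralizer ({t} : Set G) →* centralizer ({t} : Set G) :=
    (α.toMonoidHom.comp (centralizer {t}).subtype).codRestrict _ fun k => aut_mem hα k.2
  have hβ : ∀ k, f (β k) = 1 ↔ f k = 1 := fun k => by
    rw [h.ker, h.ker]
    change α k = 1 ∨ α k = t ↔ _
    rw [α.map_eq_one_iff, show α k = t ↔ k = t from
      ⟨fun e => α.injective (e.trans hα.symm), fun e => (congrArg α e).trans hα⟩]
  let γ := f.liftOfSurjective h.surj ⟨f.comp β, fun k hk => (hβ k).mpr hk⟩
  have hγ : ∀ k, γ (f k) = f (β k) := fun k => f.liftOfRightInverse_comp_apply _ _ _ k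
  obtain ⟨σ, hσ⟩ := aut8 ((alternatingGroup _).subtype.comp γ) (Subtype.val_injective.comp
    ((injective_iff_map_eq_one γ).mpr fun x hx => by
      obtain ⟨k, rfl⟩ := h.surj x
      rwa [hγ, hβ] at hx))
  refine ⟨σ, fun k k' e => ?_⟩
  rw [← hσ, ← show β k = k' from Subtype.ext e, ← hγ]
  rfl

theorem inner (α : MulAut G) (hα : α t = t) {σ : Perm (Fin 8)} (hσ : Perm.sign σ = 1)
    (h1 : ∀ k k' : centralizer ({t} : Set G), α k = k' → (f k' : Perm (Fin 8)) = σ * f k * σ⁻¹) :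
    ∃ g, α = MulAut.conj g := by
  obtain ⟨s, hs⟩ := h.surj ⟨σ, hσ⟩
  have hm : ∀ k : centralizer ({t} : Set G), α k ∈ centralizer ({t} : Set G) := fun k =>
    aut_mem hα k.2
  let β := MulAut.conj (s : G)⁻¹ * α
  have h2 : ∀ k : centralizer ({t} : Set G), β k = k ∨ β k = k * t := fun k => by
    have := (h.ker (k⁻¹ * (s⁻¹ * ⟨α k, hm k⟩ * s))).mp (Subtype.ext (by
      simp only [map_mul, map_inv, Subgroup.coe_mul, Subgroup.coe_inv, h1 k ⟨α k, hm k⟩ rfl, hs]
      simp [mul_assoc]))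
    simpa [β, inv_mul_eq_iff_eq_mul] using this
  let F := (β.toMonoidHom.comp (centralizer ({t} : Set G)).subtype).eqLocus
    (centralizer ({t} : Set G)).subtype
  have hF : ∀ k, k ∈ F ↔ β k = k := fun _ => Iff.rfl
  have h3 : ∀ k : centralizer ({t} : Set G), β k = k := by
    by_contra hn
    push Not at hn
    obtain ⟨a, ha⟩ := hn
    have hi : F.index = 2 := index_eq_two_iff.mpr ⟨a, fun b => by
      rw [hF, hF, Subgroup.coe_mul, map_mul, (h2 a).resolve_left ha]
      rcases h2 b with e | e <;> rw [e]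
      · exact Or.inr ⟨rfl, by simpa [← mul_assoc] using h.t1⟩
      · refine Or.inl ⟨?_, by simpa using h.t1⟩
        rw [mem_cent.mp a.2, ← mul_assoc, mul_assoc (b : G), h.t2, mul_one]⟩
    have h4 : (F.map f).index = 2 := by
      rw [index_map_eq _ h.surj, hi]
      intro k hk
      rcases (h.ker k).mp hk with e | e
      · rw [show k = 1 from Subtype.ext e]; exact one_mem _
      · rw [show k = ⟨t, mem_cent.mpr rfl⟩ from Subtype.ext e]; exact h.idx2 hi
    have := alternatingGroup.isSimpleGroup (α := Fin 8) (by simp)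
    rcases (normal_of_index_eq_two h4).eq_bot_or_eq_top with e | e <;> rw [e] at h4
    · have := two_mul_nat_card_alternatingGroup (α := Fin 8)
      rw [index_bot] at h4
      rw [h4, Nat.card_perm, Nat.card_fin] at this
      norm_num [Nat.factorial] at this
    · simp at h4
  obtain ⟨g, hg⟩ := h.fix β fun k hk => h3 ⟨k, mem_cent.mpr hk⟩
  exact ⟨s * g, by rw [map_mul, ← hg, ← mul_assoc, ← map_mul, mul_inv_cancel, map_one, one_mul]⟩

theorem card_aut : Nat.card (MulAut G) ≤ 2 * Nat.card G := by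
  let I := (MulAut.conj : G →* MulAut G).range
  have hI : Nat.card I ≤ Nat.card G :=
    Nat.card_le_card_of_surjective _ (MulAut.conj : G →* MulAut G).rangeRestrict_surjective
  have key : ∀ α : MulAut G, α ∉ I → ∃ g : G, (MulAut.conj g * α) t = t ∧ ∃ σ : Perm (Fin 8),
      Perm.sign σ = -1 ∧ ∀ k k' : centralizer ({t} : Set G), (MulAut.conj g * α) k = k' →
        (f k' : Perm (Fin 8)) = σ * f k * σ⁻¹ := fun α hα => by
    obtain ⟨g, hg⟩ := h.conj_inv (x := α t) (by rw [← map_mul, h.t2, map_one])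
      (by simpa using h.t1)
    have h1 : (MulAut.conj g⁻¹ * α) t = t := by simp [← hg, mul_assoc]
    obtain ⟨σ, hσ⟩ := h.induced _ h1
    refine ⟨g⁻¹, h1, σ, (Int.units_eq_one_or _).resolve_left fun e => hα ?_, hσ⟩
    obtain ⟨g', hg'⟩ := h.inner _ h1 e hσ
    exact ⟨g * g', by rw [map_mul, ← hg', ← mul_assoc, ← map_mul, mul_inv_cancel, map_one, one_mul]⟩
  have h2 : I.index ≤ 2 := by
    by_cases hn : I = ⊤
    · rw [hn, index_top]; norm_num
    obtain ⟨α, hα⟩ : ∃ α, α ∉ I := by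
      by_contra hh
      push Not at hh
      exact hn (eq_top_iff.mpr fun α _ => hh α)
    refine (index_eq_two_iff.mpr ⟨α⁻¹, fun β => ?_⟩).le
    by_cases hβ : β ∈ I
    · exact Or.inr ⟨hβ, fun e => hα (inv_mem_iff.mp ((mul_mem_cancel_left hβ).mp e))⟩
    refine Or.inl ⟨?_, hβ⟩
    obtain ⟨a, a1, σ, a2, a3⟩ := key α hα
    obtain ⟨b, b1, τ, b2, b3⟩ := key β hβ
    have a4 : (MulAut.conj a * α)⁻¹ t = t := by
      nth_rewrite 1 [← a1]; exact MulEquiv.symm_apply_apply _ t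
    obtain ⟨g, hg⟩ := h.inner (MulAut.conj b * β * (MulAut.conj a * α)⁻¹)
      (by rw [MulAut.mul_apply, a4, b1]) (σ := τ * σ⁻¹) (by simp [a2, b2]) fun k k' e => by
        have hm : (MulAut.conj a * α)⁻¹ k ∈ centralizer ({t} : Set G) := aut_mem a4 k.2
        rw [b3 ⟨_, hm⟩ k' e, a3 ⟨_, hm⟩ k (MulEquiv.apply_symm_apply _ _)]
        group
    refine ⟨b⁻¹ * g * a, ?_⟩
    rw [map_mul, map_mul, ← hg, map_inv]
    group
  rw [← I.index_mul_card]
  exact Nat.mul_le_mul h2 hI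

end Cov

end Cfsg.Agent.H8.Mc
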