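import Cfsg.Agent.H1.PCode3
import Cfsg.Agent.H1.T3Basic
import Cfsg.Agent.S3374

/-!
# Facts on `A₆` and `SL₂(5)`
-/

set_option autoImplicit false
set_option maxRecDepth 100000
set_option synthInstance.maxSize 100000
set_option synthInstance.maxHeartbeats 1000000
set_option linter.unusedSimpArgs false

namespace Cfsg.Agent.H8.Mc

open Cfsg.Agent.L0 Cfsg.Agent.L0.Code Equiv Cfsg.Agent.H1.PC Cfsg.Agent.H4.Small

/-- `A₆`. -/
abbrev A6 : Subgroup (Perm (Fin 6)) := alternatingGroup (Fin 6)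

theorem h6 : 6 ≤ 16 := by norm_num

def gA : List ℕ := [nat_lit 0x543021, nat_lit 0x354210, nat_lit 0x510243]
def LA : List ℕ := [
  nat_lit 0x534201, nat_lit 0x501234, nat_lit 0x345201, nat_lit 0x534012, nat_lit 0x453120,
  nat_lit 0x534120, nat_lit 0x345012, nat_lit 0x453201, nat_lit 0x501342, nat_lit 0x015234,
  nat_lit 0x520134, nat_lit 0x401253, nat_lit 0x150423, nat_lit 0x345120, nat_lit 0x453012,
  nat_lit 0x501423, nat_lit 0x015342, nat_lit 0x150234, nat_lit 0x520341, nat_lit 0x401532,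
  nat_lit 0x523401, nat_lit 0x102534, nat_lit 0x301245, nat_lit 0x542301, nat_lit 0x205134,
  nat_lit 0x014253, nat_lit 0x312045, nat_lit 0x134250, nat_lit 0x512034, nat_lit 0x420153,
  nat_lit 0x201435, nat_lit 0x034215, nat_lit 0x052413, nat_lit 0x140325, nat_lit 0x015423,
  nat_lit 0x150342, nat_lit 0x523140, nat_lit 0x123045, nat_lit 0x520413, nat_lit 0x401325,
  nat_lit 0x301524, nat_lit 0x523014, nat_lit 0x102453, nat_lit 0x102345, nat_lit 0x413025,
  nat_lit 0x301452, nat_lit 0x251034, nat_lit 0x542013, nat_lit 0x413250, nat_lit 0x123450,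
  nat_lit 0x231504, nat_lit 0x205341, nat_lit 0x014532, nat_lit 0x312450, nat_lit 0x052134,
  nat_lit 0x140253, nat_lit 0x235401, nat_lit 0x145023, nat_lit 0x021534, nat_lit 0x425301,
  nat_lit 0x134502, nat_lit 0x512340, nat_lit 0x420531, nat_lit 0x201354, nat_lit 0x350412,
  nat_lit 0x034152, nat_lit 0x013245, nat_lit 0x513420, nat_lit 0x432501, nat_lit 0x241530,
  nat_lit 0x320145, nat_lit 0x352140, nat_lit 0x120435, nat_lit 0x341250, nat_lit 0x541320,
  nat_lit 0x125034, nat_lit 0x204153, nat_lit 0x012435, nat_lit 0x340215, nat_lit 0x042315,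
  nat_lit 0x153240, nat_lit 0x412053, nat_lit 0x234105, nat_lit 0x053214, nat_lit 0x203514,
  nat_lit 0x540312, nat_lit 0x045213, nat_lit 0x403215, nat_lit 0x251403, nat_lit 0x235140,
  nat_lit 0x251340, nat_lit 0x130524, nat_lit 0x542130, nat_lit 0x413502, nat_lit 0x320514,
  nat_lit 0x241053, nat_lit 0x123504, nat_lit 0x231045, nat_lit 0x205413, nat_lit 0x014325,
  nat_lit 0x013524, nat_lit 0x312504, nat_lit 0x052341, nat_lit 0x140532, nat_lit 0x231450,
  nat_lit 0x235014, nat_lit 0x513042, nat_lit 0x021453, nat_lit 0x425130, nat_lit 0x145230,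
  nat_lit 0x021345, nat_lit 0x425013, nat_lit 0x134025, nat_lit 0x512403, nat_lit 0x420315,
  nat_lit 0x201543, nat_lit 0x350124, nat_lit 0x034521, nat_lit 0x013452, nat_lit 0x513204,
  nat_lit 0x350241, nat_lit 0x432150, nat_lit 0x432015, nat_lit 0x315024, nat_lit 0x145302,
  nat_lit 0x241305, nat_lit 0x320451, nat_lit 0x352401, nat_lit 0x451023, nat_lit 0x210534,
  nat_lit 0x254301, nat_lit 0x120354, nat_lit 0x341502, nat_lit 0x403152, nat_lit 0x541203,
  nat_lit 0x315240, nat_lit 0x125340, nat_lit 0x204531, nat_lit 0x012354, nat_lit 0x503412,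
  nat_lit 0x340152, nat_lit 0x042153, nat_lit 0x130245, nat_lit 0x135420, nat_lit 0x415320,
  nat_lit 0x324501, nat_lit 0x153402, nat_lit 0x412530, nat_lit 0x234051, nat_lit 0x053142,
  nat_lit 0x203145, nat_lit 0x240513, nat_lit 0x540123, nat_lit 0x431520, nat_lit 0x045132,
  nat_lit 0x214503, nat_lit 0x023415, nat_lit 0x351042, nat_lit 0x035412, nat_lit 0x423105,
  nat_lit 0x531240, nat_lit 0x514023, nat_lit 0x124053, nat_lit 0x342105, nat_lit 0x530214,
  nat_lit 0x032514, nat_lit 0x405312, nat_lit 0x450213, nat_lit 0x142350, nat_lit 0x253104,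
  nat_lit 0x230541, nat_lit 0x430512, nat_lit 0x245103, nat_lit 0x213540, nat_lit 0x352014,
  nat_lit 0x305214, nat_lit 0x135042, nat_lit 0x210453, nat_lit 0x254130, nat_lit 0x451230,
  nat_lit 0x210345, nat_lit 0x254013, nat_lit 0x120543, nat_lit 0x341025, nat_lit 0x403521,
  nat_lit 0x541032, nat_lit 0x315402, nat_lit 0x023541, nat_lit 0x214350, nat_lit 0x125403,
  nat_lit 0x204315, nat_lit 0x012543, nat_lit 0x503124, nat_lit 0x340521, nat_lit 0x042531,
  nat_lit 0x130452, nat_lit 0x135204, nat_lit 0x503241, nat_lit 0x415032, nat_lit 0x324150,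
  nat_lit 0x415203, nat_lit 0x324015, nat_lit 0x153024, nat_lit 0x451302, nat_lit 0x412305,
  nat_lit 0x234510, nat_lit 0x053421, nat_lit 0x203451, nat_lit 0x240135, nat_lit 0x540231,
  nat_lit 0x431052, nat_lit 0x431205, nat_lit 0x045321, nat_lit 0x240351, nat_lit 0x214035,
  nat_lit 0x023154, nat_lit 0x351420, nat_lit 0x035124, nat_lit 0x154320, nat_lit 0x243501,
  nat_lit 0x423051, nat_lit 0x531402, nat_lit 0x305142, nat_lit 0x514230, nat_lit 0x124530,
  nat_lit 0x342051, nat_lit 0x530142, nat_lit 0x032145, nat_lit 0x402513, nat_lit 0x405123,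
  nat_lit 0x314520, nat_lit 0x450132, nat_lit 0x142503, nat_lit 0x253041, nat_lit 0x230415,
  nat_lit 0x430125, nat_lit 0x104523, nat_lit 0x245031, nat_lit 0x213405, nat_lit 0x025314,
  nat_lit 0x054312, nat_lit 0x325104, nat_lit 0x504213, nat_lit 0x024513, nat_lit 0x421350,
  nat_lit 0x532104, nat_lit 0x302541, nat_lit 0x304512, nat_lit 0x041352, nat_lit 0x452103,
  nat_lit 0x132540, nat_lit 0x250431, nat_lit 0x103542, nat_lit 0x215430, nat_lit 0x351204,
  nat_lit 0x035241, nat_lit 0x154032, nat_lit 0x243150, nat_lit 0x154203, nat_lit 0x243015,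
  nat_lit 0x423510, nat_lit 0x531024, nat_lit 0x305421, nat_lit 0x514302, nat_lit 0x025431,
  nat_lit 0x104352, nat_lit 0x124305, nat_lit 0x342510, nat_lit 0x530421, nat_lit 0x032451,
  nat_lit 0x402135, nat_lit 0x405231, nat_lit 0x314052, nat_lit 0x314205, nat_lit 0x450321,
  nat_lit 0x402351, nat_lit 0x142035, nat_lit 0x253410, nat_lit 0x230154, nat_lit 0x430251,
  nat_lit 0x104235, nat_lit 0x245310, nat_lit 0x213054, nat_lit 0x025143, nat_lit 0x054123,
  nat_lit 0x143520, nat_lit 0x325041, nat_lit 0x504132, nat_lit 0x024135, nat_lit 0x421503,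
  nat_lit 0x532041, nat_lit 0x302415, nat_lit 0x304125, nat_lit 0x041523, nat_lit 0x452031,
  nat_lit 0x132405, nat_lit 0x250314, nat_lit 0x103425, nat_lit 0x215304, nat_lit 0x043512,
  nat_lit 0x410352, nat_lit 0x524103, nat_lit 0x321540, nat_lit 0x502431, nat_lit 0x031542,
  nat_lit 0x152430, nat_lit 0x105432, nat_lit 0x054231, nat_lit 0x143052, nat_lit 0x143205,
  nat_lit 0x325410, nat_lit 0x504321, nat_lit 0x024351, nat_lit 0x421035, nat_lit 0x532410,
  nat_lit 0x302154, nat_lit 0x304251, nat_lit 0x041235, nat_lit 0x452310, nat_lit 0x132054,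
  nat_lit 0x250143, nat_lit 0x103254, nat_lit 0x215043, nat_lit 0x043125, nat_lit 0x410523,
  nat_lit 0x524031, nat_lit 0x321405, nat_lit 0x502314, nat_lit 0x031425, nat_lit 0x152304,
  nat_lit 0x105324, nat_lit 0x310542, nat_lit 0x521430, nat_lit 0x051432, nat_lit 0x435102,
  nat_lit 0x043251, nat_lit 0x410235, nat_lit 0x524310, nat_lit 0x321054, nat_lit 0x502143,
  nat_lit 0x031254, nat_lit 0x152043, nat_lit 0x105243, nat_lit 0x310425, nat_lit 0x521304,
  nat_lit 0x051324, nat_lit 0x435021, nat_lit 0x510432, nat_lit 0x354102, nat_lit 0x310254,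
  nat_lit 0x521043, nat_lit 0x051243, nat_lit 0x435210, nat_lit 0x510324, nat_lit 0x354021,
  nat_lit 0x543102, nat_lit 0x510243, nat_lit 0x354210, nat_lit 0x543021, nat_lit 0x543210]
def gP : List ℕ := [nat_lit 0x543021, nat_lit 0x354210]
def LP : List ℕ := [
  nat_lit 0x435102, nat_lit 0x435021, nat_lit 0x354102, nat_lit 0x435210, nat_lit 0x354021,
  nat_lit 0x543102, nat_lit 0x354210, nat_lit 0x543021, nat_lit 0x543210]
def gN : List ℕ := [nat_lit 0x543021, nat_lit 0x354210, nat_lit 0x201543]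
def LN : List ℕ := [
  nat_lit 0x102345, nat_lit 0x021345, nat_lit 0x102453, nat_lit 0x021453, nat_lit 0x210345,
  nat_lit 0x102534, nat_lit 0x345012, nat_lit 0x021534, nat_lit 0x453012, nat_lit 0x210453,
  nat_lit 0x345120, nat_lit 0x453120, nat_lit 0x012435, nat_lit 0x120435, nat_lit 0x435102,
  nat_lit 0x210534, nat_lit 0x534012, nat_lit 0x345201, nat_lit 0x453201, nat_lit 0x534120,
  nat_lit 0x012354, nat_lit 0x120354, nat_lit 0x435021, nat_lit 0x201435, nat_lit 0x354102,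
  nat_lit 0x534201, nat_lit 0x012543, nat_lit 0x120543, nat_lit 0x435210, nat_lit 0x201354,
  nat_lit 0x354021, nat_lit 0x543102, nat_lit 0x201543, nat_lit 0x354210, nat_lit 0x543021,
  nat_lit 0x543210]

theorem card_A6 : Nat.card A6 = 360 := by
  have := two_mul_nat_card_alternatingGroup (α := Fin 6)
  rw [Nat.card_perm, Nat.card_fin] at this
  simp only [Nat.factorial] at this
  change Nat.card (alternatingGroup (Fin 6)) = _
  omega

theorem hA : Lists A6 LA := by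
  have h : Lists (cl 6 gA) LA :=
    lists_cl h6 _ _ (by decide +kernel) (by decide +kernel) (by decide +kernel)
      (by decide +kernel) (by decide +kernel) (by decide +kernel)
  rwa [Subgroup.eq_of_le_of_card_ge (h.le_alt (by decide +kernel))
    (card_A6.trans_le (h.card_eq.trans (by decide +kernel)).ge)] at h

theorem hP : Lists (cl 6 gP) LP :=
  lists_cl h6 _ _ (by decide +kernel) (by decide +kernel) (by decide +kernel)
    (by decide +kernel) (by decide +kernel) (by decide +kernel)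

theorem hN : Lists (cl 6 gN) LN :=
  lists_cl h6 _ _ (by decide +kernel) (by decide +kernel) (by decide +kernel)
    (by decide +kernel) (by decide +kernel) (by decide +kernel)

theorem le_P : cl 6 gP ≤ A6 := hP.le_alt (by decide +kernel)
theorem le_N : cl 6 gN ≤ A6 := hN.le_alt (by decide +kernel)

/-- A Sylow `3`-subgroup. -/
abbrev P6 : Subgroup A6 := (cl 6 gP).subgroupOf A6
/-- Its normalizer. -/
abbrev N6 : Subgroup A6 := (cl 6 gN).subgroupOf A6

theorem card_P6 : Nat.card P6 = 9 := (hP.card_sub le_P).trans (by decide +kernel)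

/-- `(0 1 2)` -/
noncomputable def a0 : A6 := ⟨dec 6 0x543021, hA.memd le_rfl (by decide +kernel)⟩
theorem enc_a0 : enc (a0 : Perm (Fin 6)) = nat_lit 0x543021 := enc_dec h6 (by decide +kernel)

/-- `(3 4 5)` -/
noncomputable def b0 : A6 := ⟨dec 6 0x354210, hA.memd le_rfl (by decide +kernel)⟩
theorem enc_b0 : enc (b0 : Perm (Fin 6)) = nat_lit 0x354210 := enc_dec h6 (by decide +kernel)

/-- `(0 3 1 4)(2 5)` -/
noncomputable def m0 : A6 := ⟨dec 6 0x201543, hA.memd le_rfl (by decide +kernel)⟩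
theorem enc_m0 : enc (m0 : Perm (Fin 6)) = nat_lit 0x201543 := enc_dec h6 (by decide +kernel)

/-- `(0 1)(3 4)` -/
noncomputable def t0 : A6 := ⟨dec 6 0x534201, hA.memd le_rfl (by decide +kernel)⟩
theorem enc_t0 : enc (t0 : Perm (Fin 6)) = nat_lit 0x534201 := enc_dec h6 (by decide +kernel)

/-- `(0 3)(1 4)` -/
noncomputable def g0 : A6 := ⟨dec 6 0x510243, hA.memd le_rfl (by decide +kernel)⟩
theorem enc_g0 : enc (g0 : Perm (Fin 6)) = nat_lit 0x510243 := enc_dec h6 (by decide +kernel)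

/-- `(1 3)(2 5)` -/
noncomputable def h0 : A6 := ⟨dec 6 0x241530, hA.memd le_rfl (by decide +kernel)⟩
theorem enc_h0 : enc (h0 : Perm (Fin 6)) = nat_lit 0x241530 := enc_dec h6 (by decide +kernel)

theorem le_of_N6 {A : Subgroup A6} (h1 : P6 ≤ A) (h2 : m0 ∈ A) : N6 ≤ A := by
  have : cl 6 gN ≤ A.map A6.subtype := cl_le (by
    simp only [gN, List.mem_cons, List.not_mem_nil, or_false]
    rintro c (rfl | rfl | rfl)
    · exact ⟨a0, h1 (dec_mem_cl (by simp [gP])), rfl⟩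
    · exact ⟨b0, h1 (dec_mem_cl (by simp [gP])), rfl⟩
    · exact ⟨m0, h2, rfl⟩)
  intro x hx
  obtain ⟨y, hy, e⟩ := this hx
  rwa [← show y = x from Subtype.ext e]

theorem rel6 : a0 ∈ P6 ∧ b0 ∈ P6 ∧ a0 ≠ 1 ∧ b0 ≠ 1 ∧ a0 * b0 ≠ 1 ∧ a0 * b0⁻¹ ≠ 1 ∧ g0 ∉ N6 ∧
    g0 * g0 = 1 ∧ g0 * t0 * g0⁻¹ = t0 ∧ g0 * m0 * g0⁻¹ * m0 = 1 ∧ m0 * m0 = t0 ∧ t0 * t0 = 1 ∧
    t0 ≠ 1 ∧ m0 * g0 * m0⁻¹ = g0 * t0 ∧ h0 * t0 * h0⁻¹ = g0 ∧ g0 ≠ t0 ∧ m0 ∈ N6 := by
  simp +contextual only [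
    ne_eq, Subtype.ext_iff, Subgroup.coe_mul, Subgroup.coe_inv, Subgroup.coe_pow,
    Subgroup.coe_one, Subgroup.mem_subgroupOf, eq_iff_enc h6, enc_mul h6, enc_inv h6, enc_one',
    enc_pow h6 enc_one', exists_prop, hA.encd, hP.encd, hN.encd, hP.mem_memF, hN.mem_memF,
    enc_a0, enc_b0, enc_m0, enc_t0, enc_g0, enc_h0]
  decide +kernel

theorem in_P6 : ∀ x ∈ P6, t0 * x * t0⁻¹ * x = 1 ∧ x ∈ N6 ∧ (x ≠ 1 → g0 * x * g0 ∉ N6) := by
  simp only [hP.sball le_P]
  simp +contextual only [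
    ne_eq, Subtype.ext_iff, Subgroup.coe_mul, Subgroup.coe_inv, Subgroup.coe_pow,
    Subgroup.coe_one, Subgroup.mem_subgroupOf, eq_iff_enc h6, enc_mul h6, enc_inv h6, enc_one',
    enc_pow h6 enc_one', exists_prop, hA.encd, hP.encd, hN.encd, hP.mem_memF, hN.mem_memF,
    enc_a0, enc_b0, enc_m0, enc_t0, enc_g0, enc_h0]
  decide +kernel

theorem in_N6 : ∀ n ∈ N6, ∀ x ∈ P6, n * x * n⁻¹ ∈ P6 := by
  simp only [hP.sball le_P, hN.sball le_N]
  simp +contextual only [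
    ne_eq, Subtype.ext_iff, Subgroup.coe_mul, Subgroup.coe_inv, Subgroup.coe_pow,
    Subgroup.coe_one, Subgroup.mem_subgroupOf, eq_iff_enc h6, enc_mul h6, enc_inv h6, enc_one',
    enc_pow h6 enc_one', exists_prop, hA.encd, hP.encd, hN.encd, hP.mem_memF, hN.mem_memF,
    enc_a0, enc_b0, enc_m0, enc_t0, enc_g0, enc_h0]
  decide +kernel

theorem all6 : ∀ h : A6, (h * a0 * h⁻¹ ∈ P6 → h ∈ N6) ∧ (h⁻¹ * t0 * h ∈ N6 → h ∈ N6 ∨ g0 * h ∈ N6) ∧
    (h ∈ N6 ∨ ∃ p ∈ P6, g0 * p⁻¹ * h ∈ N6) ∧ (h ^ 9 = 1 → (h * (t0 * h * t0⁻¹)) ^ 9 = 1 →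
      (h * (t0 * h * t0⁻¹)⁻¹) ^ 9 = 1 → (h * (g0 * h * g0⁻¹)) ^ 9 = 1 →
      (h * (g0 * h * g0⁻¹)⁻¹) ^ 9 = 1 → h = 1) := by
  simp only [hA.tball, hP.sbex le_P]
  simp +contextual only [
    ne_eq, Subtype.ext_iff, Subgroup.coe_mul, Subgroup.coe_inv, Subgroup.coe_pow,
    Subgroup.coe_one, Subgroup.mem_subgroupOf, eq_iff_enc h6, enc_mul h6, enc_inv h6, enc_one',
    enc_pow h6 enc_one', exists_prop, hA.encd, hP.encd, hN.encd, hP.mem_memF, hN.mem_memF,
    enc_a0, enc_b0, enc_m0, enc_t0, enc_g0, enc_h0]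
  decide +kernel

/-- An element of order four. -/
def sl : SL25 := ⟨!![0, 2; 2, 0], by decide⟩
/-- A conjugating element. -/
def su : SL25 := ⟨!![0, 1; 4, 3], by decide⟩
/-- An element of order five. -/
def sv : SL25 := ⟨!![1, 0; 1, 1], by decide⟩

theorem relS : sl * sx * sl⁻¹ = sx⁻¹ ∧ sl * sl = sz ∧
    sx * (su * sx * su⁻¹) * (sx * (su * sx * su⁻¹)) = sz ∧ sv ^ 5 = 1 ∧
    sx = sy⁻¹ * sv * sy⁻¹ * sy⁻¹ ∧ sz ≠ 1 ∧ sx ≠ 1 ∧ sy ≠ 1 ∧ sz * sz = 1 := by decide +kernel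

theorem gen5 {A : Subgroup SL25} (h : ∀ g, g ^ 5 = 1 → g ∈ A) (g : SL25) : g ∈ A := by
  have h1 := h _ sy_pow
  have h2 : sx ∈ A := relS.2.2.2.2.1 ▸
    mul_mem (mul_mem (mul_mem (inv_mem h1) (h _ relS.2.2.2.1)) (inv_mem h1)) (inv_mem h1)
  refine (show Subgroup.closure {sx, sy, sz} ≤ A from (Subgroup.closure_le _).mpr ?_)
    (closure_sxy ▸ Subgroup.mem_top g)
  rintro _ (rfl | rfl | rfl)
  exacts [h2, h1, sxy ▸ pow_mem (mul_mem h2 h1) 2]

theorem sz_comm (g : SL25) : g * sz = sz * g := by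
  refine Subgroup.mem_centralizer_singleton_iff.mp ((show Subgroup.closure {sx, sy, sz} ≤ _ from
    (Subgroup.closure_le _).mpr ?_) (closure_sxy ▸ Subgroup.mem_top g))
  rintro _ (rfl | rfl | rfl) <;> refine Subgroup.mem_centralizer_singleton_iff.mpr ?_
  exacts [szx.symm, szy.symm, rfl]

theorem conj_sx {g : SL25} (h3 : g ^ 3 = 1) (h1 : g ≠ 1) : ∃ x, x * g * x⁻¹ = sx := by
  obtain ⟨x, -, e | e⟩ := H1.T3.exists_conj_three (L := ⊤) trivial trivial h3 h1 sx_pow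
    relS.2.2.2.2.2.2.1 (by rw [Subgroup.card_top, card_sl25]; norm_num)
  · exact ⟨x, e⟩
  · refine ⟨sl * x, ?_⟩
    rw [← inv_inv sx, ← relS.1, conj_inv, ← e]
    group

theorem exists_lam : ∃ lam : SL25 →* alternatingGroup (Fin 5), Function.Surjective lam ∧
    ∀ g, lam g = 1 ↔ g = 1 ∨ g = sz := by
  obtain ⟨lam, h1, h2, h3⟩ := exists_hom_sl25 (z := 1) a3_pow a5_pow (one_pow _) (by simp) (by simp)
    a35_pow
  have hs : lam.range = ⊤ := by
    rw [eq_top_iff, ← closure_a35, Subgroup.closure_le]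
    rintro _ (rfl | rfl)
    exacts [⟨_, h1⟩, ⟨_, h2⟩]
  have hc := lam.ker.index_mul_card
  rw [Subgroup.index_ker, hs, Subgroup.card_top, card_alt5, card_sl25] at hc
  have : Subgroup.zpowers sz = lam.ker := Subgroup.eq_of_le_of_card_ge
    (Subgroup.zpowers_le.mpr h3) (by
      rw [Nat.card_zpowers, H1.T3.orderOf_two relS.2.2.2.2.2.2.2.2 relS.2.2.2.2.2.1]; omega)
  exact ⟨lam, MonoidHom.range_eq_top.mp hs, fun g => by
    rw [← MonoidHom.mem_ker, ← this, H1.T3.mem_zpowers_two relS.2.2.2.2.2.2.2.2]⟩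

theorem cent5 : ∀ σ : Perm (Fin 5), σ * a3 * σ⁻¹ = a3 → σ * a5 * σ⁻¹ = a5 → σ = 1 := by
  decide +kernel

theorem sym3 : ∀ a b : Perm (Fin 3), a ^ 3 = 1 → a ≠ 1 → (b * a * b⁻¹ = a⁻¹ → Perm.sign b = -1) ∧
    (Perm.sign b = 1 → b = 1 ∨ b = a ∨ b = a⁻¹) := by
  decide +kernel

end Cfsg.Agent.H8.Mc
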