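import Cfsg.Agent.H8.Jordan

/-!
Blocks and Jordan complements in quasiprimitive groups.
-/

set_option autoImplicit false

namespace Cfsg.Agent.H8

open MulAction
open scoped Pointwise

variable {G Ω : Type*} [Group G] [MulAction G Ω]

/-- In a quasiprimitive group an element fixing every translate of a proper non-empty set is
trivial. -/
theorem eq_one_of_fixes_translates
    (hqp : ∀ N : Subgroup G, N.Normal → N ≠ ⊥ → IsPretransitive N Ω)
    {B : Set Ω} (hne : B.Nonempty) (hB : B ≠ Set.univ) {h : G}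
    (hh : ∀ g : G, h • g • B = g • B) : h = 1 := by
  by_contra h1
  have hmem : h ∈ (stabilizer G B).normalCore := by
    intro g
    rw [mem_stabilizer_iff, mul_smul, mul_smul, hh, smul_inv_smul]
  have hN : (stabilizer G B).normalCore ≠ ⊥ := fun h0 => h1 (by
    rw [h0] at hmem; exact Subgroup.mem_bot.mp hmem)
  have htr := hqp _ inferInstance hN
  obtain ⟨b, hb⟩ := hne
  obtain ⟨c, hc⟩ := (Set.ne_univ_iff_exists_notMem B).mp hB
  obtain ⟨n, hn⟩ := htr.exists_smul_eq b c
  have : (n : G) • B = B := mem_stabilizer_iff.mp ((stabilizer G B).normalCore_le n.2)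
  apply hc
  rw [← this, ← hn]
  exact Set.smul_mem_smul_set hb

theorem isPretransitive_of_quasi
    (hqp : ∀ N : Subgroup G, N.Normal → N ≠ ⊥ → IsPretransitive N Ω)
    {h : G} (h1 : h ≠ 1) : IsPretransitive G Ω := by
  have : (⊤ : Subgroup G) ≠ ⊥ := fun h0 => h1 (by
    have : h ∈ (⊤ : Subgroup G) := Subgroup.mem_top h
    rw [h0] at this; exact Subgroup.mem_bot.mp this)
  have htr := hqp ⊤ inferInstance this
  refine ⟨fun x y => ?_⟩
  obtain ⟨n, hn⟩ := htr.exists_smul_eq x y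
  exact ⟨n, hn⟩

/-- A block meeting a Jordan complement and its complement contains the Jordan set. -/
theorem JordanCompl.compl_subset_block {Δ B : Set Ω} (hJ : JordanCompl G Δ) (hB : IsBlock G B)
    {a b : Ω} (ha : a ∈ B) (haΔ : a ∈ Δ) (hb : b ∈ B) (hbΔ : b ∉ Δ) : Δᶜ ⊆ B := by
  intro y hy
  obtain ⟨g, hg, hgb⟩ := hJ b hbΔ y hy
  have : g • B = B := hB.smul_eq_of_mem ha (by rw [hg a haΔ]; exact ha)
  rw [← this, ← hgb]
  exact Set.smul_mem_smul_set hb

/-- In a quasiprimitive group a Jordan set with two points lies in no translate of a proper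
block. -/
theorem JordanCompl.not_compl_subset_block
    (hqp : ∀ N : Subgroup G, N.Normal → N ≠ ⊥ → IsPretransitive N Ω)
    {Δ B : Set Ω} (hJ : JordanCompl G Δ) (hB : IsBlock G B) (hBu : B ≠ Set.univ)
    {x y : Ω} (hx : x ∉ Δ) (hy : y ∉ Δ) (hxy : x ≠ y) : ¬ Δᶜ ⊆ B := by
  intro hsub
  obtain ⟨h, hh, hhx⟩ := hJ x hx y hy
  have h1 : h ≠ 1 := fun h0 => hxy (by rw [← hhx, h0, one_smul])
  apply h1
  refine eq_one_of_fixes_translates hqp ⟨x, hsub hx⟩ hBu fun g => ?_
  by_cases hg : (g • x) ∈ Δ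
  · exact (hB.translate g).smul_eq_of_mem (Set.smul_mem_smul_set (hsub hx))
      (by rw [hh _ hg]; exact Set.smul_mem_smul_set (hsub hx))
  · have h2 : g • B = B := hB.smul_eq_of_mem (hsub hx) (hsub hg)
    rw [h2]
    exact hB.smul_eq_of_mem (hsub hx) (by rw [hhx]; exact hsub hy)

/-- In a quasiprimitive group a proper block meeting a Jordan set lies inside it. -/
theorem JordanCompl.block_subset_compl
    (hqp : ∀ N : Subgroup G, N.Normal → N ≠ ⊥ → IsPretransitive N Ω)
    {Δ B : Set Ω} (hJ : JordanCompl G Δ) (hB : IsBlock G B) (hBu : B ≠ Set.univ)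
    {x y : Ω} (hx : x ∉ Δ) (hy : y ∉ Δ) (hxy : x ≠ y) {b : Ω} (hb : b ∈ B) (hbΔ : b ∉ Δ) :
    B ⊆ Δᶜ := by
  intro a ha haΔ
  exact hJ.not_compl_subset_block hqp hB hBu hx hy hxy (hJ.compl_subset_block hB ha haΔ hb hbΔ)

end Cfsg.Agent.H8
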