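import Cfsg.Agent.H8.Marggraff
import Cfsg.Agent.H8.Quasi

/-!
Marggraff's theorem for quasiprimitive groups, and subgroups normalised by alternating groups.
-/

set_option autoImplicit false

namespace Cfsg.Agent.H8

open MulAction
open scoped Pointwise

section Alt

variable {Y : Type*} [Fintype Y] [DecidableEq Y]

/-- A subgroup normalised by the alternating group and containing a three-cycle contains the
alternating group. -/
theorem alt_le_of_normalized_of_threeCycle {S : Subgroup (Equiv.Perm Y)}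
    (hS : ∀ π ∈ alternatingGroup Y, ∀ s ∈ S, π * s * π⁻¹ ∈ S) {c : Equiv.Perm Y}
    (hc : c.IsThreeCycle) (hcS : c ∈ S) : alternatingGroup Y ≤ S := by
  rw [← Equiv.Perm.closure_three_cycles_eq_alternating, Subgroup.closure_le]
  intro d hd
  have hd' : d.IsThreeCycle := hd
  obtain ⟨π, hπ⟩ := isConj_iff.mp (Equiv.Perm.isConj_of_cycleType_eq (σ := c) (τ := d)
    (by rw [hc.cycleType, hd'.cycleType]))
  rcases Int.units_eq_one_or (Equiv.Perm.sign π) with h | h
  · rw [← hπ]; exact hS π h c hcS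
  · obtain ⟨a, ha⟩ := hc.isCycle.nonempty_support
    have h1 := (hc.eq_swap_mul_swap_iff_mem_support (a := a)).mpr ha
    have ha' : a ≠ c a := (Equiv.Perm.mem_support.mp ha).symm
    have h2 : Equiv.swap a (c a) * c⁻¹ * (Equiv.swap a (c a))⁻¹ = c := by
      set τ := Equiv.swap a (c a)
      set ρ := Equiv.swap (c a) (c (c a))
      have hτ : τ * τ = 1 := Equiv.swap_mul_self _ _
      have hτ' : τ⁻¹ = τ := Equiv.swap_inv _ _
      have hρ' : ρ⁻¹ = ρ := Equiv.swap_inv _ _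
      have h3 : c⁻¹ = ρ * τ := by rw [h1, mul_inv_rev, hτ', hρ']
      rw [h3, hτ', mul_assoc, mul_assoc, hτ, mul_one, ← h1]
    have h4 := hS (π * Equiv.swap a (c a)) (by
      rw [Equiv.Perm.mem_alternatingGroup, map_mul, h, Equiv.Perm.sign_swap ha']; simp)
      c⁻¹ (S.inv_mem hcS)
    have h5 : π * Equiv.swap a (c a) * c⁻¹ * (π * Equiv.swap a (c a))⁻¹ =
        π * (Equiv.swap a (c a) * c⁻¹ * (Equiv.swap a (c a))⁻¹) * π⁻¹ := by group
    rw [h5, h2, hπ] at h4
    exact h4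

theorem alt_le_of_normalized {S : Subgroup (Equiv.Perm Y)}
    (hS : ∀ π ∈ alternatingGroup Y, ∀ s ∈ S, π * s * π⁻¹ ∈ S) {h : Equiv.Perm Y} (hh : h ∈ S)
    {a u v : Y} (ha : h a ≠ a) (hu : h u = u) (hv : h v = v) (huv : u ≠ v) :
    alternatingGroup Y ≤ S := by
  have hau : a ≠ u := fun e => ha (by rw [e, hu])
  have hav : a ≠ v := fun e => ha (by rw [e, hv])
  let c := Equiv.swap a v * Equiv.swap a u
  have hc : c.IsThreeCycle := Equiv.Perm.isThreeCycle_swap_mul_swap_same hav hau huv.symm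
  have hca : c a ≠ a := by
    simp only [c, Equiv.Perm.coe_mul, Function.comp_apply, Equiv.swap_apply_left]
    rw [Equiv.swap_apply_of_ne_of_ne hau.symm huv]
    exact hau.symm
  have h3 := isThreeCycle_commutator (x := h) (y := c) ha hca fun z hz => by
    by_cases h1 : z = u
    · left; rw [h1, hu]
    by_cases h2 : z = v
    · left; rw [h2, hv]
    right
    simp only [c, Equiv.Perm.coe_mul, Function.comp_apply]
    rw [Equiv.swap_apply_of_ne_of_ne hz h1, Equiv.swap_apply_of_ne_of_ne hz h2]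
  refine alt_le_of_normalized_of_threeCycle hS h3 ?_
  have := S.mul_mem hh (hS c hc.mem_alternatingGroup h⁻¹ (S.inv_mem hh))
  simpa only [mul_assoc] using this

theorem mem_of_normalized_fix {S : Subgroup (Equiv.Perm Y)} {o : Y}
    (hS : ∀ π ∈ alternatingGroup Y, π o = o → ∀ s ∈ S, π * s * π⁻¹ ∈ S) {h : Equiv.Perm Y}
    (hh : h ∈ S) (ho : h o = o)
    {a u v : Y} (ha : h a ≠ a) (hu : h u = u) (hv : h v = v) (huv : u ≠ v) (huo : u ≠ o)
    (hvo : v ≠ o) {π : Equiv.Perm Y} (hπ : π ∈ alternatingGroup Y) (hπo : π o = o) : π ∈ S := by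
  have hsub : ∀ σ : Equiv.Perm Y, σ o = o → ∀ x, σ x ≠ o ↔ x ≠ o := fun σ hσ x => by
    rw [not_iff_not]
    constructor
    · intro h1; rw [← hσ] at h1; exact σ.injective h1
    · intro h1; rw [h1, hσ]
  have hsub' : ∀ σ : Equiv.Perm Y, σ o = o → ∀ x, σ x ≠ x → x ≠ o := fun σ hσ x h1 h2 =>
    h1 (by rw [h2, hσ])
  let S' : Subgroup (Equiv.Perm {x // x ≠ o}) := S.comap Equiv.Perm.ofSubtype
  have hao : a ≠ o := hsub' h ho a ha
  have := alt_le_of_normalized (S := S') (fun ρ hρ s hs => by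
      change Equiv.Perm.ofSubtype (ρ * s * ρ⁻¹) ∈ S
      rw [map_mul, map_mul, map_inv]
      refine hS _ ?_ (Equiv.Perm.ofSubtype_apply_of_not_mem _ (by simp)) _ hs
      rw [Equiv.Perm.mem_alternatingGroup, Equiv.Perm.sign_ofSubtype]
      exact hρ)
    (h := h.subtypePerm (hsub h ho)) (by
      change Equiv.Perm.ofSubtype _ ∈ S
      rw [Equiv.Perm.ofSubtype_subtypePerm _ (hsub' h ho)]
      exact hh)
    (a := ⟨a, hao⟩) (u := ⟨u, huo⟩) (v := ⟨v, hvo⟩)
    (fun e => ha (congrArg Subtype.val e)) (Subtype.ext hu) (Subtype.ext hv)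
    (fun e => huv (congrArg Subtype.val e))
  have h2 : π.subtypePerm (hsub π hπo) ∈ S' := this (by
    rw [Equiv.Perm.mem_alternatingGroup, Equiv.Perm.sign_subtypePerm _ _ (hsub' π hπo)]
    exact hπ)
  change Equiv.Perm.ofSubtype _ ∈ S at h2
  rwa [Equiv.Perm.ofSubtype_subtypePerm _ (hsub' π hπo)] at h2

end Alt

section Blocks

variable {G Ω : Type*} [Group G] [MulAction G Ω]

/-- The map sending a point to the translate of a block that contains it. -/
theorem exists_block_map [IsPretransitive G Ω] {B : Set Ω} (hB : IsBlock G B) (hne : B.Nonempty) :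
    ∃ π : Ω → orbit G B, (∀ (g : G) x, π (g • x) = g • π x) ∧
      ∀ x (C : orbit G B), π x = C ↔ x ∈ C.1 := by
  obtain ⟨a, ha⟩ := hne
  choose f hf using fun x => exists_smul_eq G a x
  have key : ∀ x (C : orbit G B), (⟨f x • B, mem_orbit B (f x)⟩ : orbit G B) = C ↔ x ∈ C.1 := by
    intro x C
    have hx : x ∈ f x • B := by
      have := Set.smul_mem_smul_set (a := f x) ha
      rwa [hf x] at this
    constructor
    · rintro rfl
      exact hx
    · intro hC
      obtain ⟨C, g, rfl⟩ := C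
      apply Subtype.ext
      exact isBlock_iff_smul_eq_smul_of_nonempty.mp hB ⟨x, hx, hC⟩
  refine ⟨fun x => ⟨f x • B, mem_orbit B (f x)⟩, fun g x => ?_, key⟩
  rw [key]
  exact Set.smul_mem_smul_set ((key x _).mp rfl)

/-- Counting a union of blocks. -/
theorem card_eq_of_block_map [Fintype Ω] [DecidableEq Ω] {B : Set Ω} [Fintype (orbit G B)]
    [DecidableEq (orbit G B)] {π : Ω → orbit G B}
    (hπ : ∀ x (C : orbit G B), π x = C ↔ x ∈ C.1) (S : Finset Ω) (T : Finset (orbit G B))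
    (hST : ∀ x, x ∈ S ↔ π x ∈ T) : S.card = T.card * B.ncard := by
  rw [Finset.card_eq_sum_card_fiberwise (f := π) (t := T) (fun x hx => (hST x).mp hx),
    ← smul_eq_mul, ← Finset.sum_const]
  refine Finset.sum_congr rfl fun C hC => ?_
  obtain ⟨C, g, rfl⟩ := C
  rw [← Set.ncard_smul_set g B, ← Set.ncard_coe_finset]
  congr 1
  ext x
  simp only [Finset.coe_filter, Set.mem_ofPred_eq, hπ]
  exact ⟨fun h => h.2, fun h => ⟨(hST x).mpr (((hπ x ⟨_, g, rfl⟩).mpr h).symm ▸ hC), h⟩⟩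

end Blocks

universe u v

/-- Marggraff's theorem for quasiprimitive groups. -/
theorem quasi_marggraff_alt {G : Type u} [Group G] [Finite G] (n : ℕ) :
    ∀ {Ω : Type v} [MulAction G Ω] [Fintype Ω] [DecidableEq Ω], Fintype.card Ω = n →
      (∀ N : Subgroup G, N.Normal → N ≠ ⊥ → IsPretransitive N Ω) →
      ∀ Δ : Finset Ω, JordanCompl G (Δ : Set Ω) → 2 ≤ Δᶜ.card → Δᶜ.card < Δ.card →
        alternatingGroup Ω ≤ (toPermHom G Ω).range := by
  induction n using Nat.strong_induction_on with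
  | h n ih =>
  intro Ω _ _ _ hn hqp Δ hJ h1 h2
  classical
  by_cases hprim : IsPreprimitive G Ω
  · exact marggraff_alt hprim hJ h1 h2
  exfalso
  obtain ⟨x, hx, y, hy, hxy⟩ := Finset.one_lt_card.mp h1
  rw [Finset.mem_compl] at hx hy
  obtain ⟨h, hh, hhx⟩ := hJ x hx y hy
  have hh1 : h ≠ 1 := fun h0 => hxy (by rw [← hhx, h0, one_smul])
  have htr : IsPretransitive G Ω := isPretransitive_of_quasi hqp hh1
  obtain ⟨B, hB, hBt⟩ : ∃ B : Set Ω, IsBlock G B ∧ ¬ IsTrivialBlock B := by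
    by_contra hc
    push Not at hc
    exact hprim ⟨fun {B} hB => hc B hB⟩
  rw [IsTrivialBlock, not_or, Set.not_subsingleton_iff] at hBt
  obtain ⟨hBn, hBu⟩ := hBt
  have hB2 : 2 ≤ B.ncard := Set.one_lt_ncard_iff_nontrivial.mpr hBn
  obtain ⟨π, hπ, hπm⟩ := exists_block_map hB hBn.nonempty
  have : Fintype (orbit G B) := Fintype.ofFinite _
  have hCb : ∀ C : orbit G B, IsBlock G C.1 := by
    rintro ⟨C, g, rfl⟩; exact hB.translate g
  have hCu : ∀ C : orbit G B, C.1 ≠ Set.univ := by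
    rintro ⟨C, g, rfl⟩ hC
    apply hBu
    have : g⁻¹ • g • B = g⁻¹ • Set.univ := congrArg (g⁻¹ • ·) hC
    rwa [inv_smul_smul, Set.smul_set_univ] at this
  have hCn : ∀ C : orbit G B, C.1.Nontrivial := by
    rintro ⟨C, g, rfl⟩
    exact hBn.image (MulAction.injective g)
  have hsurj : ∀ C : orbit G B, ∃ z, π z = C := fun C => by
    obtain ⟨z, hz⟩ := (hCn C).nonempty
    exact ⟨z, (hπm z C).mpr hz⟩
  let Δ' : Finset (orbit G B) := Finset.univ.filter fun C => C.1 ⊆ Δ
  have hΔ' : ∀ z, z ∈ Δ ↔ π z ∈ Δ' := by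
    intro z
    have hz := (hπm z _).mp rfl
    simp only [Δ', Finset.mem_filter, Finset.mem_univ, true_and]
    refine ⟨fun hzΔ w hw => ?_, fun hs => hs hz⟩
    by_contra hwΔ
    exact hJ.block_subset_compl hqp (hCb _) (hCu _) hx hy hxy hw hwΔ hz hzΔ
  have hc1 := card_eq_of_block_map hπm Δ Δ' hΔ'
  have hc2 := card_eq_of_block_map hπm Δᶜ Δ'ᶜ (fun z => by simp only [Finset.mem_compl, hΔ'])
  have hc3 := card_eq_of_block_map hπm Finset.univ Finset.univ (fun z => by simp)
  rw [Finset.card_univ, Finset.card_univ, hn] at hc3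
  have hlt' : Δ'ᶜ.card < Δ'.card := by
    rw [hc1, hc2] at h2
    exact lt_of_mul_lt_mul_right h2 (Nat.zero_le _)
  obtain ⟨y', hy', hy'x⟩ : ∃ y', y' ∉ Δ ∧ π y' ≠ π x := by
    by_contra hc
    push Not at hc
    exact hJ.not_compl_subset_block hqp (hCb (π x)) (hCu _) hx hy hxy
      fun z hz => (hπm z _).mp (hc z hz)
  have h1' : 2 ≤ Δ'ᶜ.card := Finset.one_lt_card.mpr
    ⟨π y', by simpa [← hΔ'] using hy', π x, by simpa [← hΔ'] using hx, hy'x⟩
  have hJ' : JordanCompl G (Δ' : Set (orbit G B)) := by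
    intro C hC D hD
    obtain ⟨c, rfl⟩ := hsurj C
    obtain ⟨d, rfl⟩ := hsurj D
    obtain ⟨t, ht, htc⟩ := hJ c (fun e => hC ((hΔ' c).mp e)) d (fun e => hD ((hΔ' d).mp e))
    refine ⟨t, fun E hE => ?_, by rw [← hπ, htc]⟩
    obtain ⟨e, rfl⟩ := hsurj E
    rw [← hπ, ht e ((hΔ' e).mpr hE)]
  have hqp' : ∀ N : Subgroup G, N.Normal → N ≠ ⊥ → IsPretransitive N (orbit G B) := by
    intro N hN hN'
    have := hqp N hN hN'
    refine ⟨fun C D => ?_⟩
    obtain ⟨c, rfl⟩ := hsurj C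
    obtain ⟨d, rfl⟩ := hsurj D
    obtain ⟨t, ht⟩ := this.exists_smul_eq c d
    exact ⟨t, by rw [Subgroup.smul_def, ← hπ, ← ht, Subgroup.smul_def]⟩
  have hcc := Finset.card_add_card_compl Δ'
  have halt := ih (Fintype.card (orbit G B)) (by nlinarith) rfl hqp' Δ' hJ' h1' hlt'
  -- the action on the blocks is faithful
  have hinj : Function.Injective (toPermHom G (orbit G B)) := by
    rw [injective_iff_map_eq_one]
    intro g hg
    refine eq_one_of_fixes_translates hqp hBn.nonempty hBu fun k => ?_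
    have := congrArg (fun σ : Equiv.Perm (orbit G B) => (σ ⟨k • B, mem_orbit B k⟩).1) hg
    exact this
  obtain ⟨C₀, U, V, hC₀, hU, hV, hC₀U, hC₀V, hUV⟩ := Finset.two_lt_card_iff.mp
    (show 2 < Δ'.card by omega)
  obtain ⟨t, ht, htx⟩ := hJ x hx y' hy'
  have htΔ' : ∀ E ∈ Δ', t • E = E := fun E hE => by
    obtain ⟨e, rfl⟩ := hsurj E
    rw [← hπ, ht e ((hΔ' e).mpr hE)]
  let M : Subgroup G := fixingSubgroup G C₀.1
  have key : ∀ σ ∈ alternatingGroup (orbit G B), σ C₀ = C₀ →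
      σ ∈ M.map (toPermHom G (orbit G B)) := by
    intro σ hσ hσ₀
    refine mem_of_normalized_fix (S := M.map (toPermHom G (orbit G B))) (o := C₀) 
      (h := toPermHom G (orbit G B) t) (a := π x) (u := U)
      (v := V) ?_ ⟨t, ?_, rfl⟩ (htΔ' _ hC₀) ?_ (htΔ' _ hU) (htΔ' _ hV) hUV hC₀U.symm hC₀V.symm
      hσ hσ₀
    · rintro ρ hρ hρ₀ _ ⟨m, hm, rfl⟩
      obtain ⟨r, rfl⟩ := halt hρ
      refine ⟨r * m * r⁻¹, ?_, by simp only [map_mul, map_inv]⟩
      have hr : r • C₀.1 = C₀.1 := congrArg Subtype.val hρ₀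
      rw [SetLike.mem_coe, mem_fixingSubgroup_iff] at hm ⊢
      intro z hz
      rw [← hr, Set.mem_smul_set_iff_inv_smul_mem] at hz
      rw [mul_smul, mul_smul, hm _ hz, smul_inv_smul]
    · rw [SetLike.mem_coe, mem_fixingSubgroup_iff]
      intro z hz
      exact ht z ((Finset.mem_filter.mp hC₀).2 hz)
    · change t • π x ≠ π x
      rw [← hπ, htx]
      exact hy'x
  let N : Subgroup G := (alternatingGroup (orbit G B)).comap (toPermHom G (orbit G B))
  have hN : N ≠ ⊥ := by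
    have h3 := Equiv.Perm.isThreeCycle_swap_mul_swap_same hC₀U hC₀V hUV
    obtain ⟨r, hr⟩ := halt h3.mem_alternatingGroup
    intro h0
    have : r ∈ N := by
      change toPermHom G (orbit G B) r ∈ alternatingGroup _
      rw [hr]; exact h3.mem_alternatingGroup
    rw [h0, Subgroup.mem_bot] at this
    rw [this, map_one] at hr
    exact h3.isCycle.ne_one hr.symm
  obtain ⟨a, ha, a', ha', haa'⟩ := hCn C₀
  obtain ⟨m, hm⟩ := (hqp N inferInstance hN).exists_smul_eq a a'
  have hm₀ : (toPermHom G (orbit G B) m) C₀ = C₀ := by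
    change (m : G) • C₀ = C₀
    rw [← (hπm a C₀).mpr ha, ← hπ, (hπm a C₀).mpr ha]
    exact (hπm _ C₀).mpr (hm ▸ ha')
  obtain ⟨m', hm', hmm'⟩ := key _ m.2 hm₀
  rw [hinj hmm', SetLike.mem_coe, mem_fixingSubgroup_iff] at hm'
  exact haa' ((hm' a ha).symm.trans hm)

end Cfsg.Agent.H8
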